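import Cfsg.Agent.H622.RG.Abs
import Cfsg.Agent.H516.RIM.Cent
import Cfsg.Agent.H197.Reg.Main
import Cfsg.Agent.H326.F4C.Cover
import Cfsg.Agent.FourTwo.LiftInv
import Cfsg.Agent.SporRec.TwoSp6.Sp

/-!
# S3509, `F₄(2)`: root elements and good elements of order three (helper622)

* `dead47`, `dead44` : no cover by a root involution and a commuting element of odd prime order;
* `Gd` : images of `Y0` under automorphisms (classes 3A, 3B); `gd_split` : the structure of the centralizer;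
* `gd_of_comm` : an element of order three commuting with an element of order 5 or 7 is good;
* `gd_odd` : commuting elements of different odd prime orders.
-/

set_option autoImplicit false
set_option linter.unusedSectionVars false
set_option maxRecDepth 100000

namespace Cfsg.Agent.H622.RG

open Cfsg Cfsg.Lie Cfsg.Agent.ChevalleyStructure.TwF4.Bits Cfsg.Agent.ChevalleyStructure.TwF4.Tables
  Cfsg.Agent.ChevalleyStructure.TwF4.Rel
open Cfsg.Agent.FourTwo.RankInv
open Cfsg.Agent.FourTwo.Base hiding bar bar_lt x_mul_self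
open Cfsg.Agent.FourTwo.ClassSep Cfsg.Agent.FourTwo.Par Cfsg.Agent.FourTwo.Cent Cfsg.Agent.FourTwo.BN
open Cfsg.Agent.LThreeFfour.Mat Cfsg.Agent.LThreeFfour.Rho Cfsg.Agent.LThreeFfour.Levi Cfsg.Agent.LThreeFfour.Types
open Cfsg.Agent.LThreeFfour.Long
open Cfsg.Agent.FourTwo.AutF4 (gam gam_x gam_gam gam_44 gam_47)
open Cfsg.Agent.H873.RG Cfsg.Agent.H326.F4C
open Matrix

/-! ### general -/

section gen

variable {G : Type} [Group G]

theorem nsa_congr {S S' : Type} [Group S] [Group S'] (e : S ≃* S') (h : NSA S) : NSA S' where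
  simple := Cfsg.Agent.H106.RC.isSimple_cgr0 e h.simple
  ncomm := by
    intro hc
    apply h.ncomm
    refine ⟨⟨fun a b => e.injective ?_⟩⟩
    rw [map_mul, map_mul]
    exact hc.is_comm.comm _ _
  nalt := by
    rintro ⟨n, hn, ⟨f⟩⟩
    exact h.nalt ⟨n, hn, ⟨e.trans f⟩⟩

theorem Split.map {y v : G} {M : Subgroup G} (h : Split y M v) (α : G ≃* G) :
    Split (α y) (M.map α.toMonoidHom) (α v) where
  cube := by rw [← map_pow, h.cube, map_one]
  ne := by
    intro h1
    exact h.ne (α.injective (h1.trans (map_one α).symm))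
  cen := by
    have h1 : (Subgroup.zpowers y).map α.toMonoidHom = Subgroup.zpowers (α y) := MonoidHom.map_zpowers _ _
    rw [← h1, ← Subgroup.map_sup, ← h.cen]
    ext g
    constructor
    · intro hg
      refine ⟨α.symm g, ?_, α.apply_symm_apply g⟩
      have h2 := Subgroup.mem_centralizer_singleton_iff.1 hg
      refine Subgroup.mem_centralizer_singleton_iff.2 (α.injective ?_)
      rw [map_mul, map_mul, α.apply_symm_apply]
      exact h2
    · rintro ⟨c, hc, rfl⟩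
      have h2 := Subgroup.mem_centralizer_singleton_iff.1 hc
      refine Subgroup.mem_centralizer_singleton_iff.2 ?_
      show α c * α y = α y * α c
      rw [← map_mul, h2, map_mul]
  nsa := nsa_congr (M.equivMapOfInjective α.toMonoidHom α.injective) h.nsa
  top := by
    intro h1
    apply h.top
    rw [eq_top_iff]
    intro g _
    have h2 : α g ∈ M.map α.toMonoidHom := by rw [h1]; trivial
    obtain ⟨m, hm, h3⟩ := h2
    have h4 : m = g := α.injective h3
    rwa [← h4]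
  cm := by
    rintro _ ⟨c, hc, rfl⟩ h1
    have h2 : c = 1 := by
      apply h.cm c hc
      intro m hm
      apply α.injective
      rw [map_mul, map_mul]
      exact h1 _ ⟨m, hm, rfl⟩
    rw [h2, map_one]
  mem := ⟨v, h.mem, rfl⟩
  dead := h.dead.map α

theorem split_of {y v : G} {M : Subgroup G} (h3 : y ^ 3 = 1) (h1 : y ≠ 1)
    (hcen : Subgroup.centralizer ({y} : Set G) = Subgroup.zpowers y ⊔ M) (hle : M ≤ Subgroup.centralizer ({y} : Set G))
    (hn : NSA M) (hcm : ∀ c ∈ M, (∀ m ∈ M, c * m = m * c) → c = 1) (hv : v ∈ M) (hd : Dead v y) : Split y M v where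
  cube := h3
  ne := h1
  cen := hcen
  nsa := hn
  top := by
    intro h
    have h2 : y ∈ M := by rw [h]; trivial
    exact h1 (hcm y h2 fun m hm => (Subgroup.mem_centralizer_singleton_iff.1 (hle hm)).symm)
  cm := hcm
  mem := hv
  dead := hd

theorem simple_of_equiv (M : Subgroup G) {S : Type} [Group S] (e : ↥M ≃* S) (h : IsSimpleGroup ↥M) : IsSimpleGroup S :=
  Cfsg.Agent.H106.RC.isSimple_cgr0 e h

/-- images of `y₀` under automorphisms -/
def GdA (y₀ y : G) : Prop := ∃ α : G ≃* G, y = α y₀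

theorem GdA.map {y₀ y : G} (h : GdA y₀ y) (α : G ≃* G) : GdA y₀ (α y) := by
  obtain ⟨β, rfl⟩ := h
  exact ⟨β.trans α, rfl⟩

theorem GdA.conj {y₀ y : G} (h : GdA y₀ y) (g : G) : GdA y₀ (g * y * g⁻¹) := h.map (MulAut.conj g)

theorem GdA.of_conj {y₀ y g : G} (h : GdA y₀ (g * y * g⁻¹)) : GdA y₀ y := by
  have h1 := h.conj g⁻¹
  have e : g⁻¹ * (g * y * g⁻¹) * g⁻¹⁻¹ = y := by group
  rwa [e] at h1

theorem GdA.of_isConj {y₀ y z : G} (h : GdA y₀ y) (hc : IsConj y z) : GdA y₀ z := by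
  obtain ⟨g, rfl⟩ := isConj_iff.1 hc
  exact h.conj g

theorem GdA.refl (y₀ : G) : GdA y₀ y₀ := ⟨MulEquiv.refl _, rfl⟩

theorem GdA.split {y₀ y v : G} {M : Subgroup G} (h : GdA y₀ y) (hs : Split y₀ M v) :
    ∃ (M : Subgroup G) (v : G), Split y M v := by
  obtain ⟨α, rfl⟩ := h
  exact ⟨_, _, hs.map α⟩

theorem dead_gam {a b c : G} (γ : G ≃* G) (h2 : ∀ g, γ (γ g) = g) (hab : γ a = b) (h : Dead a (γ c)) : Dead b c := by
  have h3 := h.map γ
  rwa [hab, h2] at h3

theorem comm_gam {a b c : G} (γ : G ≃* G) (hab : γ b = a) (h : c * b = b * c) : γ c * a = a * γ c := by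
  rw [← hab, ← map_mul, h, map_mul]

theorem pow_gam {c : G} {r : ℕ} (γ : G ≃* G) (h : c ^ r = 1) : γ c ^ r = 1 := by rw [← map_pow, h, map_one]

theorem ne_gam {c : G} (γ : G ≃* G) (h : c ≠ 1) : γ c ≠ 1 := fun h3 => h (γ.injective (h3.trans (map_one γ).symm))

theorem mem_cen {a c : G} (h : c * a = a * c) : c ∈ Subgroup.centralizer ({a} : Set G) :=
  Subgroup.mem_centralizer_singleton_iff.2 h

theorem of_mem_cen {a c : G} (h : c ∈ Subgroup.centralizer ({a} : Set G)) : c * a = a * c :=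
  Subgroup.mem_centralizer_singleton_iff.1 h

theorem dead_gam_sub (K : Subgroup G) {a b c : ↥K} (γ : ↥K ≃* ↥K) (h2 : ∀ g, γ (γ g) = g) (hab : γ a = b)
    (h : Dead a (γ c)) : Dead b c := dead_gam γ h2 hab h

theorem comm_gam_sub (K : Subgroup G) {a b c : ↥K} (γ : ↥K ≃* ↥K) (hab : γ b = a) (h : c * b = b * c) :
    γ c * a = a * γ c := comm_gam γ hab h

theorem pow_gam_sub (K : Subgroup G) {c : ↥K} {r : ℕ} (γ : ↥K ≃* ↥K) (h : c ^ r = 1) : γ c ^ r = 1 := pow_gam γ h

theorem ne_gam_sub (K : Subgroup G) {c : ↥K} (γ : ↥K ≃* ↥K) (h : c ≠ 1) : γ c ≠ 1 := ne_gam γ h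

end gen

/-! ### root elements -/

theorem simple_S : IsSimpleGroup (Matrix.symplecticGroup (Fin 3) (ZMod 2)) := simple_of_equiv M0 eqv simple_M0

theorem rho_surjective : Function.Surjective rho := by
  intro s
  obtain ⟨m, hm⟩ := rhoM_surjective s
  exact ⟨Subgroup.inclusion M0_le m, hm⟩

theorem perfect_C47 : ⁅C47, C47⁆ = C47 := by
  have h : C47 = Pl := cent_long
  rw [h]
  exact Cfsg.Agent.FourTwo.Perf.perfect_Pl

theorem rho_ne_one {c : ↥C47} {r : ℕ} (hr : r.Prime) (hr2 : r ≠ 2) (h : c ^ r = 1) (h1 : c ≠ 1) : rho c ≠ 1 := by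
  intro h2
  obtain ⟨k, hk⟩ := isPGroup_ker ⟨c, h2⟩
  have h3 : c ^ 2 ^ k = 1 := congrArg Subtype.val hk
  have h4 := orderOf_eq_prime h h1 (hp := ⟨hr⟩)
  have h5 := orderOf_dvd_of_pow_eq_one h3
  rw [h4] at h5
  exact hr2 ((Nat.prime_dvd_prime_iff_eq hr Nat.prime_two).1 (hr.dvd_of_dvd_pow h5))

theorem x47_ne : x 47 ≠ 1 := by
  intro h
  have h1 : Y0 = x 0 := by
    unfold Y0
    rw [h, one_mul]
  have h2 := Cfsg.Agent.H516.RIM.Cent.Y0_cube
  rw [h1] at h2
  have h3 : x 0 ^ 3 = x 0 := by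
    rw [pow_succ, pow_two, Cfsg.Agent.FourTwo.Base.x_mul_self, one_mul]
  rw [h3] at h2
  exact Cfsg.Agent.H516.RIM.Cent.Y0_ne (h1.trans h2)

/-- **Long root elements.** -/
theorem dead47 {c : LL} {r : ℕ} (hr : r.Prime) (hr2 : r ≠ 2) (h : c ^ r = 1) (h1 : c ≠ 1) (hc : c * x 47 = x 47 * c) :
    Dead (x 47) c := by
  have hcC : c ∈ C47 := mem_cen hc
  exact dead_perfect Cfsg.Agent.H197.Reg.simple_LL x47_ne rfl perfect_C47 simple_S rho rho_surjective isPGroup_ker hcC
    (rho_ne_one hr hr2 (Subtype.ext h) (fun h2 => h1 (congrArg Subtype.val h2)))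

/-- **Short root elements.** -/
theorem dead44 {c : LL} {r : ℕ} (hr : r.Prime) (hr2 : r ≠ 2) (h : c ^ r = 1) (h1 : c ≠ 1) (hc : c * x 44 = x 44 * c) :
    Dead (x 44) c :=
  dead_gam_sub (chevF4.group (ZMod 2)) gam gam_gam gam_47 (dead47 hr hr2 (pow_gam_sub (chevF4.group (ZMod 2)) gam h)
    (ne_gam_sub (chevF4.group (ZMod 2)) gam h1) (comm_gam_sub (chevF4.group (ZMod 2)) gam gam_44 hc))

/-! ### good elements -/

/-- the classes 3A and 3B -/
def Gd (y : LL) : Prop := GdA Y0 y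

theorem not_alt_of_card {S : Type} [Group S] (h : Nat.card S = 1451520) : ¬ IsAlternating S := by
  rintro ⟨n, hn, ⟨e⟩⟩
  have h1 : Nat.card (alternatingGroup (Fin n)) = 1451520 := by
    rw [← Nat.card_congr e.toEquiv, h]
  have hnt : Nontrivial (Fin n) := Fin.nontrivial_iff_two_le.2 (by omega)
  have h2 : 2 * Nat.card (alternatingGroup (Fin n)) = n.factorial := by
    rw [Nat.card_eq_fintype_card, two_mul_card_alternatingGroup, Fintype.card_perm, Fintype.card_fin]
  rw [h1] at h2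
  have h3 : n < 10 := by
    by_contra hcon
    have h4 : (10 : ℕ).factorial ≤ n.factorial := Nat.factorial_le (by omega)
    rw [← h2] at h4
    have h5 : (10 : ℕ).factorial = 3628800 := by decide
    omega
  have h4 : n.factorial ≤ (9 : ℕ).factorial := Nat.factorial_le (by omega)
  have h5 : (9 : ℕ).factorial = 362880 := by decide
  omega

theorem nsa_sub {G : Type} [Group G] (M : Subgroup G) (e : ↥M ≃* Matrix.symplecticGroup (Fin 3) (ZMod 2))
    (hs : IsSimpleGroup ↥M) (hn : ¬ IsMulCommutative ↥M) : NSA ↥M where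
  simple := hs
  ncomm := hn
  nalt := by
    apply not_alt_of_card
    rw [Nat.card_congr e.toEquiv]
    exact Cfsg.Agent.SporRec.TwoSp6.Sp.card_S

theorem nsa_M0 : NSA ↥M0 := nsa_sub M0 eqv simple_M0 (Cfsg.Agent.H516.RIM.Cent.nc_sub M0 eqv')

theorem w41 : nw [3, 2, 1, 2, 3] * x 41 * (nw [3, 2, 1, 2, 3])⁻¹ = x 47 :=
  nw_conj (w := [3, 2, 1, 2, 3]) (by decide) (r := 41) (by norm_num)

theorem dead_of_conj' {G : Type} [Group G] {a b c d : G} (g : G) (h1 : g * a * g⁻¹ = b) (h2 : g * c * g⁻¹ = d)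
    (h : Dead b d) : Dead a c := by
  apply Dead.of_conj g
  rwa [h1, h2]

theorem Y1_comm : Y1 * x 47 = x 47 * Y1 := comm47 ⟨Y1, M0_le Y1_mem⟩

theorem split_Y0 : Split Y0 M0 (x 41) :=
  split_of Cfsg.Agent.H516.RIM.Cent.Y0_cube Cfsg.Agent.H516.RIM.Cent.Y0_ne Cfsg.Agent.H516.RIM.Cent.cent_Y0 M0_le_cent
    nsa_M0 (fun _ hc h => Cfsg.Agent.H516.RIM.Cent.center_M0 hc h) (x_mem_M0 (by decide))
    (dead_of_conj' (nw [3, 2, 1, 2, 3]) w41 Y1_conj
      (dead47 Nat.prime_three (by norm_num) Y1_cube Cfsg.Agent.H516.RIM.Cent.Y1_ne Y1_comm))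

theorem gd_split {y : LL} (h : Gd y) : ∃ (M : Subgroup LL) (v : LL), Split y M v := GdA.split h split_Y0

/-! ### elements of order three commuting with elements of order 5 or 7 -/

section gen2

variable {G : Type} [Group G]

theorem gdA_conj_sub (K : Subgroup G) {y₀ y g z : ↥K} (h : GdA y₀ y) (e : g * y * g⁻¹ = z) : GdA y₀ z := by
  rw [← e]
  exact h.conj g

theorem gdA_isConj_sub (K : Subgroup G) {y₀ y z : ↥K} (h : GdA y₀ y) (hc : IsConj y z) : GdA y₀ z := h.of_isConj hc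

theorem gdA_map_sub (K : Subgroup G) {y₀ y z : ↥K} (α : ↥K ≃* ↥K) (h : GdA y₀ y) (e : α y = z) : GdA y₀ z := by
  rw [← e]
  exact h.map α

theorem pow_split (K : Subgroup G) {x y : ↥K} {r m : ℕ} (hc : y * x = x * y) (h3 : y ^ 3 = 1) (hr : x ^ r = 1)
    (hm : m % 3 = 1) (hmr : r ∣ m) : (y * x) ^ m = y := by
  rw [(show Commute y x from hc).mul_pow]
  obtain ⟨k, rfl⟩ := hmr
  have h1 : r * k = 3 * (r * k / 3) + 1 := by omega
  have h2 : y ^ (r * k) = y := by rw [h1, pow_succ, pow_mul, h3, one_pow, one_mul]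
  rw [h2, pow_mul, hr, one_pow, mul_one]

theorem orderOf_mul_sub (K : Subgroup G) {x y : ↥K} {r s : ℕ} (hr : r.Prime) (hs : s.Prime) (hrs : r ≠ s)
    (hc : x * y = y * x) (hx : x ^ r = 1) (hy : y ^ s = 1) (hx1 : x ≠ 1) (hy1 : y ≠ 1) : orderOf (x * y) = r * s := by
  have h1 := orderOf_eq_prime hx hx1 (hp := ⟨hr⟩)
  have h2 := orderOf_eq_prime hy hy1 (hp := ⟨hs⟩)
  rw [Commute.orderOf_mul_eq_mul_orderOf_of_coprime hc, h1, h2]
  rw [h1, h2]
  exact (Nat.coprime_primes hr hs).2 hrs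

end gen2

theorem h16 : H16 := fun f ho hf _ hg => Cfsg.Agent.H197.Reg.exists_conj16 f ho hf hg

theorem gd_2225 : Gd (wd [22, 25]) := by
  have h1 : nw [2, 3, 1, 2, 0, 1, 2, 3] * x 47 * (nw [2, 3, 1, 2, 0, 1, 2, 3])⁻¹ = x 22 :=
    nw_conj (w := [2, 3, 1, 2, 0, 1, 2, 3]) (by decide) (r := 47) (by norm_num)
  have h2 : nw [2, 3, 1, 2, 0, 1, 2, 3] * x 0 * (nw [2, 3, 1, 2, 0, 1, 2, 3])⁻¹ = x 25 :=
    nw_conj (w := [2, 3, 1, 2, 0, 1, 2, 3]) (by decide) (r := 0) (by norm_num)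
  refine gdA_conj_sub (chevF4.group (ZMod 2)) (GdA.refl Y0) (g := nw [2, 3, 1, 2, 0, 1, 2, 3]) ?_
  rw [show [22, 25] = [22] ++ [25] from rfl, wd_append, wd_one, wd_one, ← h1, ← h2]
  unfold Y0
  group

theorem gam_Y0 : gam Y0 = x 44 * x 3 := by
  unfold Y0
  rw [map_mul, gam_47, gam_x (by norm_num)]
  rfl

theorem gd_443 : Gd (x 44 * x 3) := gdA_map_sub (chevF4.group (ZMod 2)) gam (GdA.refl Y0) gam_Y0

theorem gd_2027 : Gd (wd [20, 27]) := by
  have h1 : nw [1, 2, 3, 0, 1, 2, 1, 0] * x 44 * (nw [1, 2, 3, 0, 1, 2, 1, 0])⁻¹ = x 20 :=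
    nw_conj (w := [1, 2, 3, 0, 1, 2, 1, 0]) (by decide) (r := 44) (by norm_num)
  have h2 : nw [1, 2, 3, 0, 1, 2, 1, 0] * x 3 * (nw [1, 2, 3, 0, 1, 2, 1, 0])⁻¹ = x 27 :=
    nw_conj (w := [1, 2, 3, 0, 1, 2, 1, 0]) (by decide) (r := 3) (by norm_num)
  refine gdA_conj_sub (chevF4.group (ZMod 2)) gd_443 (g := nw [1, 2, 3, 0, 1, 2, 1, 0]) ?_
  rw [show [20, 27] = [20] ++ [27] from rfl, wd_append, wd_one, wd_one, ← h1, ← h2]
  group

/-- the test: only `[20, 27]` and `[22, 25]` have the invariants of `wd w ^ m` -/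
def chkG (w : List ℕ) (m : ℕ) : Bool :=
  W16.all fun p => !(decide (iw p.2 = iw (rpw w m))) || decide (p.2 = [20, 27] ∨ p.2 = [22, 25])

theorem gd_of_chk {w : List ℕ} {m : ℕ} (hw : okw w = true) (ho : Odd (orderOf (wd w))) (h : chkG w m = true) :
    Gd (wd w ^ m) := by
  have h1 : Odd (orderOf (wd w ^ m)) := by
    exact Odd.of_dvd_nat ho (orderOf_pow_dvd m)
  obtain ⟨p, hp, hc⟩ := exists_mem h16 h1
  rw [← wd_rpw] at hc ⊢
  have h2 := iw_eq_of_isConj (okw16 hp) (okw_rpw hw m) hc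
  have h3 := List.all_eq_true.1 h p hp
  rw [Bool.or_eq_true, Bool.not_eq_true', decide_eq_false_iff_not, decide_eq_true_eq] at h3
  rcases h3 with h3 | h3
  · exact absurd h2 h3
  · rcases h3 with h3 | h3
    · rw [h3] at hc
      exact gdA_isConj_sub (chevF4.group (ZMod 2)) gd_2027 hc
    · rw [h3] at hc
      exact gdA_isConj_sub (chevF4.group (ZMod 2)) gd_2225 hc

theorem filter15 : (W16.filter fun p => p.1 % 15 == 0) =
    [(15, [24, 23, 25, 22, 20, 27]), (15, [33, 14, 27, 20, 22, 25])] := by decide +kernel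

theorem chk15a : chkG [24, 23, 25, 22, 20, 27] 10 = true := by decide +kernel
theorem chk15b : chkG [33, 14, 27, 20, 22, 25] 10 = true := by decide +kernel
theorem chk21a : chkG w21 7 = true := by decide +kernel
theorem chk21b : chkG w21' 7 = true := by decide +kernel

/-- **An element of order three commuting with an element of order 5 or 7 is good.** -/
theorem gd_of_comm {x y : LL} {r : ℕ} (hr : r = 5 ∨ r = 7) (hc : y * x = x * y) (h3 : y ^ 3 = 1) (hy : y ≠ 1)
    (hx : x ^ r = 1) (hx1 : x ≠ 1) : Gd y := by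
  have hrp : r.Prime := by rcases hr with rfl | rfl <;> norm_num
  have h1 := orderOf_mul_sub (chevF4.group (ZMod 2)) Nat.prime_three hrp (by omega) hc h3 hx hy hx1
  rcases hr with rfl | rfl
  · obtain ⟨p, hp, e⟩ := exists_of_order h16 (by norm_num) h1
    rw [show 3 * 5 = 15 from rfl, filter15] at hp
    have e2 := isConj_pow e 10
    rw [pow_split (chevF4.group (ZMod 2)) hc h3 hx (m := 10) (by norm_num) (by norm_num)] at e2
    have ho : Odd (orderOf (wd p.2)) := by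
      rw [orderOf_conj e, h1]
      decide
    simp only [List.mem_cons, List.not_mem_nil, or_false] at hp
    rcases hp with rfl | rfl
    · exact gdA_isConj_sub (chevF4.group (ZMod 2)) (gd_of_chk (by decide) ho chk15a) e2
    · exact gdA_isConj_sub (chevF4.group (ZMod 2)) (gd_of_chk (by decide) ho chk15b) e2
  · obtain ⟨p, hp, e⟩ := exists_of_order h16 (by norm_num) h1
    rw [show 3 * 7 = 21 from rfl, filter21] at hp
    have e2 := isConj_pow e 7
    rw [pow_split (chevF4.group (ZMod 2)) hc h3 hx (m := 7) (by norm_num) (by norm_num)] at e2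
    have ho : Odd (orderOf (wd p.2)) := by
      rw [orderOf_conj e, h1]
      decide
    simp only [List.mem_cons, List.not_mem_nil, or_false] at hp
    rcases hp with rfl | rfl
    · exact gdA_isConj_sub (chevF4.group (ZMod 2)) (gd_of_chk (by decide) ho chk21a) e2
    · exact gdA_isConj_sub (chevF4.group (ZMod 2)) (gd_of_chk (by decide) ho chk21b) e2

theorem max16 : (W16.all fun p => decide (1 ≤ p.1 ∧ p.1 ≤ 21)) = true := by decide

/-- **Commuting elements of different odd prime orders.** -/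
theorem gd_odd (x y : LL) (r s : ℕ) (hr : r.Prime) (hs : s.Prime) (hr2 : r ≠ 2) (hs2 : s ≠ 2) (hrs : r ≠ s)
    (hx : x ^ r = 1) (hy : y ^ s = 1) (hx1 : x ≠ 1) (hy1 : y ≠ 1) (hc : x * y = y * x) : Gd x ∨ Gd y := by
  have h1 := orderOf_mul_sub (chevF4.group (ZMod 2)) hr hs hrs hc hx hy hx1 hy1
  have ro := (hr.eq_two_or_odd').resolve_left hr2
  have so := (hs.eq_two_or_odd').resolve_left hs2
  have ho : Odd (orderOf (x * y)) := by
    rw [h1]
    exact ro.mul so
  obtain ⟨p, hp, e⟩ := exists_mem h16 ho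
  have h2 := orderOf16 hp
  rw [orderOf_conj e, h1] at h2
  have h3 := List.all_eq_true.1 max16 p hp
  rw [decide_eq_true_eq] at h3
  have h4 : r * s ≤ 21 := (Nat.le_of_dvd (by omega) h2).trans h3.2
  have hr3 : 3 ≤ r := by
    have := hr.two_le
    omega
  have hs3 : 3 ≤ s := by
    have := hs.two_le
    omega
  have hr7 : r ≤ 7 := by nlinarith
  have hs7 : s ≤ 7 := by nlinarith
  have h5 : (r = 3 ∧ (s = 5 ∨ s = 7)) ∨ (s = 3 ∧ (r = 5 ∨ r = 7)) := by
    interval_cases r <;> interval_cases s <;> first | omega | (exfalso; revert hr hs ro so; decide)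
  rcases h5 with ⟨rfl, h5⟩ | ⟨rfl, h5⟩
  · exact Or.inl (gd_of_comm h5 hc hx hx1 hy hy1)
  · exact Or.inr (gd_of_comm h5 hc.symm hy hy1 hx hx1)

end Cfsg.Agent.H622.RG
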