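import Cfsg.Agent.H622.RG.FA
import Cfsg.Agent.FourTwo.Facts2

/-!
# S3509, `F₄(2)`: involutions with elements of odd prime order (helper622)

* `prime47` : primes of `C(x 47)`; `exists_zpowers` : Sylow subgroups of order `p`;
* `cases47'` : elements of order three of `C(x 47)`;
* `pair_mid` : the involution `x 44 * x 47`; `pair_big` : the involution `x 37 * x 47`;
* `pair2` : an involution and a commuting element of odd prime order which is not good are dead.
-/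

set_option autoImplicit false
set_option linter.unusedSectionVars false
set_option maxRecDepth 100000

namespace Cfsg.Agent.H622.RG

open Cfsg Cfsg.Lie Cfsg.Agent.ChevalleyStructure.TwF4.Bits Cfsg.Agent.ChevalleyStructure.TwF4.Tables
  Cfsg.Agent.ChevalleyStructure.TwF4.Rel
open Cfsg.Agent.FourTwo.RankInv
open Cfsg.Agent.FourTwo.Base hiding bar bar_lt x_mul_self
open Cfsg.Agent.FourTwo.ClassSep Cfsg.Agent.FourTwo.Par Cfsg.Agent.FourTwo.Cent Cfsg.Agent.FourTwo.BN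
open Cfsg.Agent.LThreeFfour.Mat Cfsg.Agent.LThreeFfour.Rho Cfsg.Agent.LThreeFfour.Levi Cfsg.Agent.LThreeFfour.Types
open Cfsg.Agent.LThreeFfour.Long Cfsg.Agent.LThreeFfour.SpClass
open Cfsg.Agent.FourTwo.AutF4 (gam gam_x gam_gam gam_44 gam_47)
open Cfsg.Agent.H873.RG Cfsg.Agent.H326.F4C
open Matrix

section gen

/-- the order of an extension by a 2-group -/
theorem card_of_hom {C S : Type*} [Group C] [Finite C] [Group S] (ρ : C →* S) (hρ : Function.Surjective ρ)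
    (hk : IsPGroup 2 ρ.ker) : ∃ k, Nat.card C = 2 ^ k * Nat.card S := by
  have : Fact (Nat.Prime 2) := ⟨Nat.prime_two⟩
  obtain ⟨k, h⟩ := IsPGroup.iff_card.1 hk
  refine ⟨k, ?_⟩
  rw [Subgroup.card_eq_card_quotient_mul_card_subgroup ρ.ker, h,
    Nat.card_congr (QuotientGroup.quotientKerEquivOfSurjective ρ hρ).toEquiv, mul_comm]

/-- Sylow subgroups of order `p` -/
theorem exists_zpowers {K : Type*} [Group K] [Finite K] {p : ℕ} (hp : p.Prime) (hn : ¬ p ^ 2 ∣ Nat.card K) {x w : K}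
    (hx : orderOf x = p) (hw : orderOf w = p) : ∃ h : K, h * x * h⁻¹ ∈ Subgroup.zpowers w := by
  have : Fact p.Prime := ⟨hp⟩
  have hf : (Nat.card K).factorization p = 1 := by
    apply le_antisymm
    · by_contra hcon
      apply hn
      exact (hp.pow_dvd_iff_le_factorization Nat.card_pos.ne').2 (by omega)
    · apply (hp.dvd_iff_one_le_factorization Nat.card_pos.ne').1
      rw [← hx]
      exact orderOf_dvd_natCard x
  have hcx : Nat.card (Subgroup.zpowers x) = p ^ (Nat.card K).factorization p := by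
    rw [Nat.card_zpowers, hx, hf, pow_one]
  have hcw : Nat.card (Subgroup.zpowers w) = p ^ (Nat.card K).factorization p := by
    rw [Nat.card_zpowers, hw, hf, pow_one]
  obtain ⟨h, hh⟩ := MulAction.exists_smul_eq K (Sylow.ofCard _ hcx) (Sylow.ofCard _ hcw)
  refine ⟨h, ?_⟩
  have h1 : h * x * h⁻¹ ∈ ((h • Sylow.ofCard _ hcx : Sylow p K) : Subgroup K) := by
    rw [Sylow.coe_subgroup_smul]
    exact ⟨x, Subgroup.mem_zpowers x, rfl⟩
  rw [hh] at h1
  exact h1

variable {G : Type} [Group G]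

theorem dead_via {t x c v : G} {M : Subgroup G} (hc : Split c M v) (hcx : x * c = c * x) (hx : x ∉ Subgroup.zpowers c)
    (h : ∀ H : Subgroup G, t ∈ Sf H x → c ∈ Sf H x) : Dead t x := by
  intro H hH hxS
  exact hc.pair hcx hx H hH (Sf_symm (h H (Sf_symm hxS)))

theorem not_mem_of_pow {x c : G} (hc : c ^ 3 = 1) {r : ℕ} (hr : r = 5 ∨ r = 7) (hx : x ^ r = 1) (hx1 : x ≠ 1) :
    x ∉ Subgroup.zpowers c := by
  intro h
  obtain ⟨k, rfl⟩ := Subgroup.mem_zpowers_iff.1 h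
  have h3 : (c ^ k) ^ 3 = 1 := by
    rw [← zpow_natCast, ← _root_.zpow_mul, mul_comm, _root_.zpow_mul, zpow_natCast, hc, _root_.one_zpow]
  apply hx1
  rw [← orderOf_eq_one_iff]
  refine Nat.eq_one_of_dvd_coprimes ?_ (orderOf_dvd_of_pow_eq_one h3) (orderOf_dvd_of_pow_eq_one hx)
  rcases hr with rfl | rfl <;> norm_num

/-- an element of prime order generates -/
theorem mem_zpowers_of {z w : G} {p : ℕ} (hp : p.Prime) (hw : w ^ p = 1) (hw1 : w ≠ 1) (h : z ∈ Subgroup.zpowers w)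
    (hz : z ≠ 1) : w ∈ Subgroup.zpowers z := by
  have hwo : orderOf w = p := orderOf_eq_prime hw hw1 (hp := ⟨hp⟩)
  have hpf : Fact (Nat.card (Subgroup.zpowers w)).Prime := ⟨by rw [Nat.card_zpowers, hwo]; exact hp⟩
  have h4 : (⟨z, h⟩ : Subgroup.zpowers w) ≠ 1 := fun h' => hz (congrArg Subtype.val h')
  have h5 := mem_zpowers_of_prime_card (p := Nat.card (Subgroup.zpowers w)) (g := (⟨z, h⟩ : Subgroup.zpowers w))
    (g' := ⟨w, Subgroup.mem_zpowers w⟩) rfl h4
  obtain ⟨a, ha⟩ := Subgroup.mem_zpowers_iff.1 h5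
  refine Subgroup.mem_zpowers_iff.2 ⟨a, ?_⟩
  have := congrArg Subtype.val ha
  simpa using this

end gen

/-! ### the centralizer of `x 47` -/

theorem card47 : ∃ k, Nat.card ↥C47 = 2 ^ k * 1451520 := by
  obtain ⟨k, h⟩ := card_of_hom rho rho_surjective isPGroup_ker
  refine ⟨k, ?_⟩
  rw [h]
  congr 1
  exact Cfsg.Agent.SporRec.TwoSp6.Sp.card_S

theorem not_sq {p k : ℕ} (hp : p = 5 ∨ p = 7) : ¬ p ^ 2 ∣ 2 ^ k * 1451520 := by
  intro h
  rcases hp with rfl | rfl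
  · have h1 : Nat.Coprime (5 ^ 2) (2 ^ k) := Nat.Coprime.pow _ _ (by norm_num)
    have h2 := h1.dvd_of_dvd_mul_left h
    revert h2
    decide
  · have h1 : Nat.Coprime (7 ^ 2) (2 ^ k) := Nat.Coprime.pow _ _ (by norm_num)
    have h2 := h1.dvd_of_dvd_mul_left h
    revert h2
    decide

theorem prime_of_dvd {r k : ℕ} (hr : r.Prime) (hr2 : r ≠ 2) (h : r ∣ 2 ^ k * 1451520) : r = 3 ∨ r = 5 ∨ r = 7 := by
  have h1 : r.Coprime (2 ^ k) := Nat.Coprime.pow_right _ ((Nat.coprime_primes hr Nat.prime_two).2 hr2)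
  have h2 : r ∣ 2 ^ 9 * (3 ^ 4 * (5 * 7)) := by
    have := h1.dvd_of_dvd_mul_left h
    simpa using this
  have h3 : r.Coprime (2 ^ 9) := Nat.Coprime.pow_right _ ((Nat.coprime_primes hr Nat.prime_two).2 hr2)
  have h4 := h3.dvd_of_dvd_mul_left h2
  rcases (Nat.Prime.dvd_mul hr).1 h4 with h5 | h5
  · exact Or.inl ((Nat.prime_dvd_prime_iff_eq hr Nat.prime_three).1 (hr.dvd_of_dvd_pow h5))
  · rcases (Nat.Prime.dvd_mul hr).1 h5 with h6 | h6
    · exact Or.inr (Or.inl ((Nat.prime_dvd_prime_iff_eq hr (by norm_num)).1 h6))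
    · exact Or.inr (Or.inr ((Nat.prime_dvd_prime_iff_eq hr (by norm_num)).1 h6))

theorem prime47 {g : ↥C47} {r : ℕ} (hr : r.Prime) (hr2 : r ≠ 2) (h : orderOf g = r) : r = 3 ∨ r = 5 ∨ r = 7 := by
  obtain ⟨k, hk⟩ := card47
  have h1 := orderOf_dvd_natCard g
  rw [h, hk] at h1
  exact prime_of_dvd hr hr2 h1

/-! ### elements of order three -/

/-- type 6 -/
def Y3 : LL := wd [41, 6, 30, 17, 25, 22]

theorem Y3_mem : Y3 ∈ M0 := wd_mem_M0 (by decide)

theorem Y3_cube : Y3 ^ 3 = 1 := by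
  have h := wd_eq [41, 6, 30, 17, 25, 22, 41, 6, 30, 17, 25, 22, 41, 6, 30, 17, 25, 22] [] (by decide +kernel)
  rw [wd_nil] at h
  rw [← h, pow_succ, pow_two]
  unfold Y3
  rw [← wd_append, ← wd_append]
  rfl

def A3 : Matrix I6 I6 (ZMod 2) := M6 (wordM [41, 6, 30, 17, 25, 22])

theorem r0_Y3 : r0 Y3 = A3 := r0_wd (by decide)

def f3 : Fin 3 → (I6 → ZMod 2) := ![A3 *ᵥ sv (Sum.inl 0), A3 *ᵥ sv (Sum.inl 1), A3 *ᵥ sv (Sum.inl 2)]

theorem pat3 : Pat A3 (fun _ => true) := by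
  refine ⟨ee, f3, ⟨?_, ?_, ?_⟩, ?_⟩
  · decide +kernel
  · decide +kernel
  · decide +kernel
  · unfold Rel3
    decide +kernel

def y3 : ↥C47 := ⟨Y3, M0_le Y3_mem⟩

theorem A3_ne : A3 ≠ 1 := by decide +kernel

theorem rho_y3_ne : rho y3 ≠ 1 := by
  intro h
  have h1 := r0_of_rho h
  apply A3_ne
  rw [← r0_Y3]
  exact h1

theorem y3_order : orderOf y3 = 3 := orderOf_of_rho (Subtype.ext Y3_cube) rho_y3_ne

/-- **elements of order three of `C(x 47)`** -/
theorem cases47' {g : ↥C47} (hg : orderOf g = 3) :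
    (∃ c : ↥C47, c * g * c⁻¹ = y1) ∨ (∃ c : ↥C47, c * g * c⁻¹ = y2) ∨ ((∃ c : ↥C47, c * g * c⁻¹ = y3) ∧
      ∀ v : I6 → ZMod 2, v + r0 (g : LL) *ᵥ v + r0 (g : LL) *ᵥ (r0 (g : LL) *ᵥ v) = 0) := by
  have h3 : g ^ 3 = 1 := by
    have h := pow_orderOf_eq_one g
    rwa [hg] at h
  have h4 : r0 (g : LL) * (r0 (g : LL) * r0 (g : LL)) = 1 := by
    have h5 : rho g * (rho g * rho g) = 1 := by
      rw [← map_mul, ← map_mul, ← pow_two, ← pow_succ', h3, map_one]
    have h6 := congrArg (fun z : Matrix.symplecticGroup (Fin 3) (ZMod 2) => (z : Matrix I6 I6 (ZMod 2))) h5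
    exact h6
  obtain ⟨δ, hδ⟩ := exists_pattern (C47_le g.2).2.1 h4
  have hδ' : Pat ((rho g : Matrix.symplecticGroup (Fin 3) (ZMod 2)) : Matrix I6 I6 (ZMod 2)) δ := hδ
  rcases cnt_three δ with rfl | rfl | h | h
  · exfalso
    exact rho_ne hg (eq_one_of_pat hδ')
  · right; right
    refine ⟨?_, fun v => sum_eq_zero hδ' v⟩
    apply conj_of_rho hg y3_order
    have h7 : Pat ((rho y3 : Matrix.symplecticGroup (Fin 3) (ZMod 2)) : Matrix I6 I6 (ZMod 2)) (fun _ => true) := by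
      rw [rho_coe]
      change Pat (r0 Y3) _
      rw [r0_Y3]
      exact pat3
    exact isConj_of_cnt hδ' h7 rfl
  · left
    apply conj_of_rho hg y1_order
    have h7 : Pat ((rho y1 : Matrix.symplecticGroup (Fin 3) (ZMod 2)) : Matrix I6 I6 (ZMod 2)) ![true, false, false] := by
      rw [rho_coe]
      change Pat (r0 Y1) _
      rw [r0_Y1]
      exact pat1
    exact isConj_of_cnt hδ' h7 h
  · right; left
    apply conj_of_rho hg y2_order
    have h7 : Pat ((rho y2 : Matrix.symplecticGroup (Fin 3) (ZMod 2)) : Matrix I6 I6 (ZMod 2)) ![true, true, false] := by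
      rw [rho_coe]
      change Pat (r0 Y2) _
      rw [r0_Y2]
      exact pat2
    exact isConj_of_cnt hδ' h7 h

section gen3

variable {G : Type} [Group G]

theorem gdA_of_conj_sub (K : Subgroup G) {y₀ y g z : ↥K} (h : GdA y₀ z) (e : g * y * g⁻¹ = z) : GdA y₀ y := by
  rw [← e] at h
  exact h.of_conj

end gen3

theorem gd_of_conj {y g z : LL} (h : Gd z) (e : g * y * g⁻¹ = z) : Gd y :=
  gdA_of_conj_sub (chevF4.group (ZMod 2)) h e

theorem gd_Y1 : Gd Y1 := gdA_conj_sub (chevF4.group (ZMod 2)) (GdA.refl Y0) Y1_conj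

theorem gd_Z2 : Gd Z2 := gdA_map_sub (chevF4.group (ZMod 2)) phi (GdA.refl Y0) phi_Y0

theorem gd_Y2 : Gd Y2 := gd_of_conj (y := Y2) (g := wd [30, 41, 10]) (z := Z2) gd_Z2 z2_conj

/-- good or of type 6 -/
theorem gd_or {g : ↥C47} (hg : orderOf g = 3) : Gd (g : LL) ∨ ((∃ c : ↥C47, c * g * c⁻¹ = y3) ∧
      ∀ v : I6 → ZMod 2, v + r0 (g : LL) *ᵥ v + r0 (g : LL) *ᵥ (r0 (g : LL) *ᵥ v) = 0) := by
  rcases cases47' hg with ⟨c, h⟩ | ⟨c, h⟩ | h
  · left
    have h1 := Subtype.ext_iff.1 h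
    rw [Subgroup.coe_mul, Subgroup.coe_mul, Subgroup.coe_inv] at h1
    exact gd_of_conj (y := (g : LL)) (g := (c : LL)) (z := Y1) gd_Y1 h1
  · left
    have h1 := Subtype.ext_iff.1 h
    rw [Subgroup.coe_mul, Subgroup.coe_mul, Subgroup.coe_inv] at h1
    exact gd_of_conj (y := (g : LL)) (g := (c : LL)) (z := Y2) gd_Y2 h1
  · exact Or.inr h

/-! ### elements commuting with `x 44` -/

/-- an element commuting with `x 47` and `x 44` fixes `v0` -/
theorem fix_v0 {g : ↥C47} (h : (g : LL) * x 44 = x 44 * g) : r0 (g : LL) *ᵥ v0 = v0 := by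
  have h1 : (mt (g : LL)).mulVec (evec 44) = evec 44 :=
    (fix_short (r := 44) (by norm_num) (by decide)).2 h
  have h2 : EEᵀ * r0 (g : LL) = mt (g : LL) * EEᵀ := (C47_le g.2).1.1
  have h3 : evec 44 = EEᵀ *ᵥ v0 := by
    have h4 := evec_em (Sum.inl 0)
    have h5 : rt6 (Sum.inl 0) = 44 := rfl
    rw [h5] at h4
    rw [h4]
    funext i
    unfold v0
    rw [Matrix.mulVec_single_one]
    rfl
  have h4 : EEᵀ *ᵥ (r0 (g : LL) *ᵥ v0) = EEᵀ *ᵥ v0 := by
    rw [Matrix.mulVec_mulVec, h2, ← Matrix.mulVec_mulVec, ← h3, h1]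
  have h6 : ∀ w : I6 → ZMod 2, EE *ᵥ (EEᵀ *ᵥ w) = w := fun w => by
    rw [Matrix.mulVec_mulVec, EE_EEt, Matrix.one_mulVec]
  rw [← h6 (r0 (g : LL) *ᵥ v0), h4, h6]

theorem v0_ne' : v0 ≠ 0 := by decide +kernel

/-! ### matrices commuting with `T37` -/

def T37 : Matrix I6 I6 (ZMod 2) := M6 (wordM [37])

/-- `T37 + 1` -/
def N37 : Matrix I6 I6 (ZMod 2) := Matrix.of fun i j =>
  match i, j with
  | Sum.inl 0, Sum.inr 1 => 1
  | Sum.inl 1, Sum.inr 0 => 1
  | _, _ => 0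

theorem T37_eq : T37 = 1 + N37 := by decide +kernel

theorem mul6 (A B : Matrix I6 I6 (ZMod 2)) (p q : I6) : (A * B) p q =
    A p (Sum.inl 0) * B (Sum.inl 0) q + A p (Sum.inl 1) * B (Sum.inl 1) q + A p (Sum.inl 2) * B (Sum.inl 2) q +
    (A p (Sum.inr 0) * B (Sum.inr 0) q + A p (Sum.inr 1) * B (Sum.inr 1) q + A p (Sum.inr 2) * B (Sum.inr 2) q) := by
  rw [Matrix.mul_apply, Fintype.sum_sum_type, Fin.sum_univ_three, Fin.sum_univ_three]

theorem n00 (q : I6) : N37 (Sum.inl 0) q = if q = Sum.inr 1 then 1 else 0 := by revert q; decide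
theorem n01 (q : I6) : N37 (Sum.inl 1) q = if q = Sum.inr 0 then 1 else 0 := by revert q; decide
theorem n02 (q : I6) : N37 (Sum.inl 2) q = 0 := by revert q; decide
theorem n10 (q : I6) : N37 (Sum.inr 0) q = 0 := by revert q; decide
theorem n11 (q : I6) : N37 (Sum.inr 1) q = 0 := by revert q; decide
theorem n12 (q : I6) : N37 (Sum.inr 2) q = 0 := by revert q; decide
theorem m00 (q : I6) : N37 q (Sum.inl 0) = 0 := by revert q; decide
theorem m01 (q : I6) : N37 q (Sum.inl 1) = 0 := by revert q; decide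
theorem m02 (q : I6) : N37 q (Sum.inl 2) = 0 := by revert q; decide
theorem m12 (q : I6) : N37 q (Sum.inr 2) = 0 := by revert q; decide
theorem m10 (q : I6) : N37 q (Sum.inr 0) = if q = Sum.inl 1 then 1 else 0 := by revert q; decide
theorem m11 (q : I6) : N37 q (Sum.inr 1) = if q = Sum.inl 0 then 1 else 0 := by revert q; decide

theorem mulN (A : Matrix I6 I6 (ZMod 2)) (p q : I6) : (A * N37) p q =
    (if q = Sum.inr 1 then A p (Sum.inl 0) else 0) + (if q = Sum.inr 0 then A p (Sum.inl 1) else 0) := by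
  rw [mul6, n00, n01, n02, n10, n11, n12]
  simp

theorem Nmul (A : Matrix I6 I6 (ZMod 2)) (p q : I6) : (N37 * A) p q =
    (if p = Sum.inl 0 then A (Sum.inr 1) q else 0) + (if p = Sum.inl 1 then A (Sum.inr 0) q else 0) := by
  rw [mul6, m00, m01, m02, m10, m11, m12]
  by_cases h0 : p = Sum.inl 0
  · subst h0; simp
  · by_cases h1 : p = Sum.inl 1
    · subst h1; simp
    · simp [h0, h1]

/-- commuting with `T37` -/
structure Bl (A : Matrix I6 I6 (ZMod 2)) : Prop where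
  c0 : ∀ p, p ≠ Sum.inl 0 → p ≠ Sum.inl 1 → A p (Sum.inl 0) = 0
  c1 : ∀ p, p ≠ Sum.inl 0 → p ≠ Sum.inl 1 → A p (Sum.inl 1) = 0
  r0 : ∀ q, q ≠ Sum.inr 0 → q ≠ Sum.inr 1 → A (Sum.inr 0) q = 0
  r1 : ∀ q, q ≠ Sum.inr 0 → q ≠ Sum.inr 1 → A (Sum.inr 1) q = 0
  e00 : A (Sum.inr 1) (Sum.inr 1) = A (Sum.inl 0) (Sum.inl 0)
  e01 : A (Sum.inr 1) (Sum.inr 0) = A (Sum.inl 0) (Sum.inl 1)
  e10 : A (Sum.inr 0) (Sum.inr 1) = A (Sum.inl 1) (Sum.inl 0)
  e11 : A (Sum.inr 0) (Sum.inr 0) = A (Sum.inl 1) (Sum.inl 1)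

theorem bl_of_comm {A : Matrix I6 I6 (ZMod 2)} (h : A * T37 = T37 * A) : Bl A := by
  have hN : A * N37 = N37 * A := by
    rw [T37_eq, Matrix.mul_add, Matrix.add_mul, Matrix.mul_one, Matrix.one_mul] at h
    exact add_left_cancel h
  have key : ∀ p q, (if q = Sum.inr 1 then A p (Sum.inl 0) else 0) + (if q = Sum.inr 0 then A p (Sum.inl 1) else 0) =
      (if p = Sum.inl 0 then A (Sum.inr 1) q else 0) + (if p = Sum.inl 1 then A (Sum.inr 0) q else 0) := by
    intro p q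
    rw [← mulN, ← Nmul, hN]
  refine ⟨fun p h0 h1 => ?_, fun p h0 h1 => ?_, fun q h0 h1 => ?_, fun q h0 h1 => ?_, ?_, ?_, ?_, ?_⟩
  · have := key p (Sum.inr 1); simpa [h0, h1] using this
  · have := key p (Sum.inr 0); simpa [h0, h1] using this
  · have := key (Sum.inl 1) q; simpa [h0, h1] using this.symm
  · have := key (Sum.inl 0) q; simpa [h0, h1] using this.symm
  · have := key (Sum.inl 0) (Sum.inr 1); simpa using this.symm
  · have := key (Sum.inl 0) (Sum.inr 0); simpa using this.symm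
  · have := key (Sum.inl 1) (Sum.inr 1); simpa using this.symm
  · have := key (Sum.inl 1) (Sum.inr 0); simpa using this.symm

def bP (A : Matrix I6 I6 (ZMod 2)) : Matrix (Fin 2) (Fin 2) (ZMod 2) :=
  !![A (Sum.inl 0) (Sum.inl 0), A (Sum.inl 0) (Sum.inl 1); A (Sum.inl 1) (Sum.inl 0), A (Sum.inl 1) (Sum.inl 1)]

def bQ (A : Matrix I6 I6 (ZMod 2)) : Matrix (Fin 2) (Fin 2) (ZMod 2) :=
  !![A (Sum.inl 2) (Sum.inl 2), A (Sum.inl 2) (Sum.inr 2); A (Sum.inr 2) (Sum.inl 2), A (Sum.inr 2) (Sum.inr 2)]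

theorem bP_mul {A B : Matrix I6 I6 (ZMod 2)} (hB : Bl B) : bP (A * B) = bP A * bP B := by
  unfold bP
  rw [Matrix.mul_fin_two]
  simp only [mul6]
  rw [hB.c0 (Sum.inl 2) (by decide) (by decide), hB.c0 (Sum.inr 0) (by decide) (by decide),
    hB.c0 (Sum.inr 1) (by decide) (by decide), hB.c0 (Sum.inr 2) (by decide) (by decide),
    hB.c1 (Sum.inl 2) (by decide) (by decide), hB.c1 (Sum.inr 0) (by decide) (by decide),
    hB.c1 (Sum.inr 1) (by decide) (by decide), hB.c1 (Sum.inr 2) (by decide) (by decide)]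
  simp only [mul_zero, add_zero]

theorem bQ_mul {A B : Matrix I6 I6 (ZMod 2)} (hA : Bl A) (hB : Bl B) : bQ (A * B) = bQ A * bQ B := by
  unfold bQ
  rw [Matrix.mul_fin_two]
  simp only [mul6]
  rw [hA.c0 (Sum.inl 2) (by decide) (by decide), hA.c0 (Sum.inr 2) (by decide) (by decide),
    hA.c1 (Sum.inl 2) (by decide) (by decide), hA.c1 (Sum.inr 2) (by decide) (by decide),
    hB.r0 (Sum.inl 2) (by decide) (by decide), hB.r0 (Sum.inr 2) (by decide) (by decide),
    hB.r1 (Sum.inl 2) (by decide) (by decide), hB.r1 (Sum.inr 2) (by decide) (by decide)]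
  simp only [mul_zero, zero_mul, add_zero, zero_add]

theorem pow5 : ∀ P : Matrix (Fin 2) (Fin 2) (ZMod 2), P ^ 5 = 1 → P = 1 := by decide +kernel
theorem pow7 : ∀ P : Matrix (Fin 2) (Fin 2) (ZMod 2), P ^ 7 = 1 → P = 1 := by decide +kernel

theorem bl_pow {A : Matrix I6 I6 (ZMod 2)} (h : A * T37 = T37 * A) (n : ℕ) :
    bP (A ^ n) = bP A ^ n ∧ bQ (A ^ n) = bQ A ^ n := by
  induction n with
  | zero =>
    rw [pow_zero, pow_zero, pow_zero]
    exact ⟨by decide +kernel, by decide +kernel⟩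
  | succ n ih =>
    have h1 : Bl (A ^ n) := bl_of_comm ((show Commute A T37 from h).pow_left n)
    rw [pow_succ, pow_succ, pow_succ, bP_mul (bl_of_comm h), bQ_mul h1 (bl_of_comm h), ih.1, ih.2]
    exact ⟨rfl, rfl⟩

theorem char2 (a : ZMod 2) : a + a = 0 := by revert a; decide

theorem mat_char2 (A : Matrix I6 I6 (ZMod 2)) : A + A = 0 := by
  ext p q
  exact char2 _

theorem mat_big {A : Matrix I6 I6 (ZMod 2)} (h : A * T37 = T37 * A) {r : ℕ} (hr : r = 5 ∨ r = 7) (hA : A ^ r = 1) :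
    A = 1 := by
  have hB := bl_of_comm h
  have h1 := bl_pow h r
  rw [hA] at h1
  have eP : bP (1 : Matrix I6 I6 (ZMod 2)) = 1 := by decide +kernel
  have eQ : bQ (1 : Matrix I6 I6 (ZMod 2)) = 1 := by decide +kernel
  rw [eP, eQ] at h1
  have hP : bP A = 1 := by
    rcases hr with rfl | rfl
    · exact pow5 _ h1.1.symm
    · exact pow7 _ h1.1.symm
  have hQ : bQ A = 1 := by
    rcases hr with rfl | rfl
    · exact pow5 _ h1.2.symm
    · exact pow7 _ h1.2.symm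
  have p00 : A (Sum.inl 0) (Sum.inl 0) = 1 := congrFun (congrFun hP 0) 0
  have p01 : A (Sum.inl 0) (Sum.inl 1) = 0 := congrFun (congrFun hP 0) 1
  have p10 : A (Sum.inl 1) (Sum.inl 0) = 0 := congrFun (congrFun hP 1) 0
  have p11 : A (Sum.inl 1) (Sum.inl 1) = 1 := congrFun (congrFun hP 1) 1
  have q00 : A (Sum.inl 2) (Sum.inl 2) = 1 := congrFun (congrFun hQ 0) 0
  have q01 : A (Sum.inl 2) (Sum.inr 2) = 0 := congrFun (congrFun hQ 0) 1
  have q10 : A (Sum.inr 2) (Sum.inl 2) = 0 := congrFun (congrFun hQ 1) 0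
  have q11 : A (Sum.inr 2) (Sum.inr 2) = 1 := congrFun (congrFun hQ 1) 1
  set B := A + 1 with hBdef
  have cI0 : ∀ p, B p (Sum.inl 0) = 0 := by
    intro p
    rw [hBdef, Matrix.add_apply]
    by_cases h0 : p = Sum.inl 0
    · subst h0; rw [p00]; decide
    · by_cases h2 : p = Sum.inl 1
      · subst h2; rw [p10]; decide
      · rw [hB.c0 p h0 h2, Matrix.one_apply_ne h0]; rfl
  have cI1 : ∀ p, B p (Sum.inl 1) = 0 := by
    intro p
    rw [hBdef, Matrix.add_apply]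
    by_cases h0 : p = Sum.inl 0
    · subst h0; rw [p01]; decide
    · by_cases h2 : p = Sum.inl 1
      · subst h2; rw [p11]; decide
      · rw [hB.c1 p h0 h2, Matrix.one_apply_ne h2]; rfl
  have rJ0 : ∀ q, B (Sum.inr 0) q = 0 := by
    intro q
    rw [hBdef, Matrix.add_apply]
    by_cases h0 : q = Sum.inr 0
    · subst h0; rw [hB.e11, p11]; decide
    · by_cases h2 : q = Sum.inr 1
      · subst h2; rw [hB.e10, p10]; decide
      · rw [hB.r0 q h0 h2, Matrix.one_apply_ne (Ne.symm h0)]; rfl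
  have rJ1 : ∀ q, B (Sum.inr 1) q = 0 := by
    intro q
    rw [hBdef, Matrix.add_apply]
    by_cases h0 : q = Sum.inr 0
    · subst h0; rw [hB.e01, p01]; decide
    · by_cases h2 : q = Sum.inr 1
      · subst h2; rw [hB.e00, p00]; decide
      · rw [hB.r1 q h0 h2, Matrix.one_apply_ne (Ne.symm h2)]; rfl
  have b22 : B (Sum.inl 2) (Sum.inl 2) = 0 := by rw [hBdef, Matrix.add_apply, q00]; decide
  have b25 : B (Sum.inl 2) (Sum.inr 2) = 0 := by rw [hBdef, Matrix.add_apply, q01]; decide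
  have b52 : B (Sum.inr 2) (Sum.inl 2) = 0 := by rw [hBdef, Matrix.add_apply, q10]; decide
  have b55 : B (Sum.inr 2) (Sum.inr 2) = 0 := by rw [hBdef, Matrix.add_apply, q11]; decide
  have hBB : ∀ p q, (B * B) p q = B p (Sum.inl 2) * B (Sum.inl 2) q + B p (Sum.inr 2) * B (Sum.inr 2) q := by
    intro p q
    rw [mul6, cI0, cI1, rJ0, rJ1]
    simp
  have h4 : (B * B) * (B * B) = 0 := by
    ext p q
    rw [mul6, hBB p (Sum.inl 0), hBB p (Sum.inl 1), hBB p (Sum.inl 2), hBB p (Sum.inr 2), hBB (Sum.inr 0) q,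
      hBB (Sum.inr 1) q, cI0, cI0, cI1, cI1, b22, b52, b25, b55, rJ0, rJ0, rJ1, rJ1]
    simp
  have e2 : B * B = A * A + 1 := by
    rw [hBdef, Matrix.add_mul, Matrix.mul_add, Matrix.mul_one, Matrix.one_mul]
    calc A * A + A + (A + 1) = A * A + (A + A) + 1 := by abel
      _ = _ := by rw [mat_char2, add_zero]
  have e4 : (B * B) * (B * B) = (A * A) * (A * A) + 1 := by
    rw [e2, Matrix.add_mul, Matrix.mul_add, Matrix.mul_one, Matrix.one_mul]
    calc A * A * (A * A) + A * A + (A * A + 1) = A * A * (A * A) + (A * A + A * A) + 1 := by abel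
      _ = _ := by rw [mat_char2, add_zero]
  have h5 : A ^ 4 = 1 := by
    have h6 : (A * A) * (A * A) + 1 = 0 := by rw [← e4, h4]
    have h7 : (A * A) * (A * A) = 1 := by
      calc (A * A) * (A * A) = (A * A) * (A * A) + (1 + 1) := by rw [mat_char2, add_zero]
        _ = ((A * A) * (A * A) + 1) + 1 := by abel
        _ = 1 := by rw [h6, zero_add]
    calc A ^ 4 = (A * A) * (A * A) := by noncomm_ring
      _ = 1 := h7
  rcases hr with rfl | rfl
  · rw [pow_succ, h5, one_mul] at hA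
    exact hA
  · have h8 : A ^ 8 = 1 := by
      calc A ^ 8 = A ^ 4 * A ^ 4 := by rw [← pow_add]
        _ = 1 := by rw [h5, one_mul]
    rw [pow_succ, hA, one_mul] at h8
    exact h8

end Cfsg.Agent.H622.RG
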