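import Cfsg.Agent.H622.RG.FB

/-!
# S3509, `F₄(2)`: involutions with elements of odd prime order, second part (helper622)
-/

set_option autoImplicit false
set_option linter.unusedSectionVars false
set_option maxRecDepth 100000

namespace Cfsg.Agent.H622.RG

open Cfsg Cfsg.Lie Cfsg.Agent.ChevalleyStructure.TwF4.Bits Cfsg.Agent.ChevalleyStructure.TwF4.Tables
  Cfsg.Agent.ChevalleyStructure.TwF4.Rel
open Cfsg.Agent.FourTwo.RankInv
open Cfsg.Agent.FourTwo.Base hiding bar bar_lt x_mul_self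
open Cfsg.Agent.FourTwo.ClassSep Cfsg.Agent.FourTwo.Par Cfsg.Agent.FourTwo.Cent Cfsg.Agent.FourTwo.BN
open Cfsg.Agent.LThreeFfour.Mat Cfsg.Agent.LThreeFfour.Rho Cfsg.Agent.LThreeFfour.Levi Cfsg.Agent.LThreeFfour.Types
open Cfsg.Agent.LThreeFfour.Long Cfsg.Agent.LThreeFfour.SpClass
open Cfsg.Agent.FourTwo.AutF4 (gam gam_x gam_gam gam_44 gam_47)
open Cfsg.Agent.H873.RG Cfsg.Agent.H326.F4C
open Matrix

/-! ### general -/

section gen

variable {G : Type} [Group G]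

theorem comm_of_zpowers {z w u : G} (h : z ∈ Subgroup.zpowers w) (hu : u * w = w * u) : u * z = z * u := by
  obtain ⟨k, rfl⟩ := Subgroup.mem_zpowers_iff.1 h
  exact ((show Commute u w from hu).zpow_right k).eq

theorem Sf_prod {H : Subgroup G} {t u z : G} (ht : t ∈ Sf H z) (hu : u * z = z * u) : t * (u * t * u⁻¹) ∈ Sf H z :=
  mul_mem ht (Sf_conj ht hu)

/-- the pair `(t, z)` by the product `c = t t^u` -/
theorem dead_prod {t u z v : G} {M : Subgroup G} (hc : Split (t * (u * t * u⁻¹)) M v) (htz : t * z = z * t)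
    (hu : u * z = z * u) (hz : z ∉ Subgroup.zpowers (t * (u * t * u⁻¹))) : Dead t z := by
  refine dead_via hc ?_ hz fun H h => Sf_prod h hu
  have h1 : (u * t * u⁻¹) * z = z * (u * t * u⁻¹) :=
    ((((show Commute u z from hu).mul_left (show Commute t z from htz))).mul_left
      ((show Commute u z from hu).inv_left)).eq
  exact ((show Commute t z from htz).mul_left (show Commute _ z from h1)).eq.symm

/-- the elements of `K` acting trivially on the point `u` -/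
theorem fix_zpowers {K S X : Type*} [Group K] [Group S] [MulAction S X] (ρ : K →* S) {g h w : K} {v : X}
    (hg : ρ g • v = v) (hw : w ∈ Subgroup.zpowers (h * g * h⁻¹)) : ρ w • (ρ h • v) = ρ h • v := by
  have h1 : ρ (h * g * h⁻¹) ∈ MulAction.stabilizer S (ρ h • v) := by
    rw [MulAction.mem_stabilizer_iff, map_mul, map_mul, map_inv, mul_smul, mul_smul, inv_smul_smul, hg]
  obtain ⟨k, rfl⟩ := Subgroup.mem_zpowers_iff.1 hw
  have h2 : ρ ((h * g * h⁻¹) ^ k) ∈ MulAction.stabilizer S (ρ h • v) := by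
    rw [map_zpow]
    exact zpow_mem h1 k
  exact h2

theorem conj_ne_one {h g : G} (hg : g ≠ 1) : h * g * h⁻¹ ≠ 1 := by
  intro h1
  apply hg
  rw [mul_inv_eq_one, mul_eq_left] at h1
  exact h1

theorem cen_le_of {a b : G} (h : ∀ g : G, g * a = a * g → g * b = b * g) :
    Subgroup.centralizer ({a} : Set G) ≤ Subgroup.centralizer ({b} : Set G) :=
  fun g hg => mem_cen (h g (of_mem_cen hg))

theorem orderOf_mk {K : Subgroup G} {g : G} (hg : g ∈ K) {r : ℕ} (hr : r.Prime) (h : g ^ r = 1) (h1 : g ≠ 1) :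
    orderOf (⟨g, hg⟩ : ↥K) = r :=
  orderOf_eq_prime (Subtype.ext h) (fun h' => h1 (congrArg Subtype.val h')) (hp := ⟨hr⟩)

theorem conj_pow_one {h g : G} {n : ℕ} (hg : g ^ n = 1) : (h * g * h⁻¹) ^ n = 1 := by
  rw [conj_pow, hg, mul_one, mul_inv_cancel]

end gen

/-! ### the involution `x 44 * x 47` -/

def A7 : Matrix I6 I6 (ZMod 2) := M6 (wordM [33, 12, 28])

theorem fix7 : ∀ v : I6 → ZMod 2, A7 *ᵥ v = v → v = 0 := by decide +kernel

def W7 : LL := wd [33, 12, 28]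

theorem W7_mem : W7 ∈ M0 := wd_mem_M0 (by decide)

theorem r0_W7 : r0 W7 = A7 := r0_wd (by decide)

theorem W7_pow : W7 ^ 7 = 1 := pow_eq_one_of (w := [33, 12, 28]) (by decide) (by decide +kernel)

def w7 : ↥C47 := ⟨W7, M0_le W7_mem⟩

theorem w7_pow : w7 ^ 7 = 1 := Subtype.ext W7_pow

theorem A7_ne : A7 ≠ 1 := by decide +kernel

theorem w7_ne : w7 ≠ 1 := by
  intro h
  have h1 : rho w7 = 1 := by rw [h, map_one]
  have h2 := r0_of_rho h1
  apply A7_ne
  rw [← r0_W7]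
  exact h2

theorem rho_smul (g : ↥C47) (v : I6 → ZMod 2) : (rho g • v : I6 → ZMod 2) = r0 (g : LL) *ᵥ v := rfl

theorem r0_w7 : r0 (w7 : LL) = A7 := r0_W7

theorem w7_order : orderOf w7 = 7 := orderOf_eq_prime w7_pow w7_ne (hp := ⟨by norm_num⟩)

theorem exists_c7 {g : ↥C47} (h : orderOf g = 7) : ∃ c : ↥C47, w7 ∈ Subgroup.zpowers (c * g * c⁻¹) := by
  have h7 : Nat.Prime 7 := by norm_num
  obtain ⟨k, hk⟩ := card47
  obtain ⟨c, hc⟩ := exists_zpowers h7 (by rw [hk]; exact not_sq (Or.inr rfl)) h w7_order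
  have hg1 : g ≠ 1 := by
    intro h'
    rw [h', orderOf_one] at h
    omega
  refine ⟨c, mem_zpowers_of h7 w7_pow w7_ne hc ?_⟩
  intro h1
  apply hg1
  rw [mul_inv_eq_one, mul_eq_left] at h1
  exact h1

theorem no7_mid {g : ↥C47} (h : orderOf g = 7) (h44 : (g : LL) * x 44 = x 44 * g) : False := by
  obtain ⟨c, hc⟩ := exists_c7 h
  have h2 : rho g • v0 = v0 := (rho_smul g v0).trans (fix_v0 h44)
  have h3 := fix_zpowers rho h2 hc
  rw [rho_smul, r0_w7] at h3
  have h5 := fix7 _ h3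
  apply v0_ne'
  have h6 : (v0 : I6 → ZMod 2) = (rho c)⁻¹ • (rho c • v0) := (inv_smul_smul _ _).symm
  rw [h6, h5]
  exact Matrix.mulVec_zero _

def W5 : LL := wd [22, 25, 20, 27]

theorem W5_pow : W5 ^ 5 = 1 := pow_eq_one_of (w := [22, 25, 20, 27]) (by decide) (by decide +kernel)

theorem W5_ne : W5 ≠ 1 := by
  have h := ne_of_iw (w := [22, 25, 20, 27]) (w' := []) (by decide) (by decide) (by decide +kernel)
  exact h

theorem W5_comm0 : x 0 * W5 = W5 * x 0 := by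
  have h := wd_eq [0, 22, 25, 20, 27] [22, 25, 20, 27, 0] (by decide +kernel)
  rw [show [0, 22, 25, 20, 27] = [0] ++ [22, 25, 20, 27] from rfl,
    show [22, 25, 20, 27, 0] = [22, 25, 20, 27] ++ [0] from rfl, wd_append, wd_append, wd_one] at h
  exact h

theorem W5_comm44 : W5 * x 44 = x 44 * W5 := by
  have h := wd_eq [22, 25, 20, 27, 44] [44, 22, 25, 20, 27] (by decide +kernel)
  rw [show [44, 22, 25, 20, 27] = [44] ++ [22, 25, 20, 27] from rfl,
    show [22, 25, 20, 27, 44] = [22, 25, 20, 27] ++ [44] from rfl, wd_append, wd_append, wd_one] at h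
  exact h

theorem W5_comm47 : W5 * x 47 = x 47 * W5 := by
  have h := wd_eq [22, 25, 20, 27, 47] [47, 22, 25, 20, 27] (by decide +kernel)
  rw [show [47, 22, 25, 20, 27] = [47] ++ [22, 25, 20, 27] from rfl,
    show [22, 25, 20, 27, 47] = [22, 25, 20, 27] ++ [47] from rfl, wd_append, wd_append, wd_one] at h
  exact h

/-- the product of `x 44 * x 47` and its conjugate under `x 0` -/
theorem c5_eq : (x 44 * x 47) * (x 0 * (x 44 * x 47) * (x 0)⁻¹) = wd [44, 47, 0, 44, 47, 0] := by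
  rw [x_inv]
  simp only [wd, List.map_cons, List.map_nil, List.prod_cons, List.prod_nil, mul_one, mul_assoc]

theorem c5_cube : wd [44, 47, 0, 44, 47, 0] ^ 3 = 1 := pow_eq_one_of (by decide) (by decide +kernel)

theorem c5_ne : wd [44, 47, 0, 44, 47, 0] ≠ 1 := by
  have h := ne_of_iw (w := [44, 47, 0, 44, 47, 0]) (w' := []) (by decide) (by decide) (by decide +kernel)
  exact h

/-! ### the involution `x 44 * x 47`: the result -/

/-- the centralizer of `x 44 * x 47` -/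
abbrev CM : Subgroup LL := Subgroup.centralizer ({x 44 * x 47} : Set LL)

theorem CM_le : CM ≤ C47 :=
  cen_le_of (G := LL) (a := x 44 * x 47) (b := x 47) fun g h => Cfsg.Agent.FourTwo.LiftInv.cent_c' (g := g) h

theorem card_CM {p : ℕ} (hp : p = 5 ∨ p = 7) : ¬ p ^ 2 ∣ Nat.card ↥CM := by
  intro h
  obtain ⟨k, hk⟩ := card47
  have h1 := h.trans (Subgroup.card_dvd_of_le CM_le)
  rw [hk] at h1
  exact not_sq hp h1

theorem W5_mem : W5 ∈ CM := by
  apply mem_cen
  rw [← mul_assoc, W5_comm44, mul_assoc, W5_comm47, mul_assoc]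

/-- an element of order five commuting with `x 44 * x 47` -/
theorem exists_c5 {g : ↥CM} (h : orderOf g = 5) : ∃ c : ↥CM, c * g * c⁻¹ ∈ Subgroup.zpowers (⟨W5, W5_mem⟩ : ↥CM) := by
  have hw : orderOf (⟨W5, W5_mem⟩ : ↥CM) = 5 :=
    orderOf_mk (G := LL) (K := CM) (g := W5) W5_mem Nat.prime_five W5_pow W5_ne
  exact exists_zpowers Nat.prime_five (card_CM (Or.inl rfl)) h hw

section gen2

variable {G : Type} [Group G]

theorem coe_zp {K : Subgroup G} {z w : ↥K} (h : z ∈ Subgroup.zpowers w) : (z : G) ∈ Subgroup.zpowers (w : G) := by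
  obtain ⟨k, rfl⟩ := Subgroup.mem_zpowers_iff.1 h
  exact Subgroup.mem_zpowers_iff.2 ⟨k, rfl⟩

/-- the transport of the case of order five -/
theorem five_aux {t x w u : G} {Q : G → Prop} (hQ : ∀ c, Q c → ∃ (M : Subgroup G) (v : G), Split c M v)
    (h5 : ∀ {y z : G}, y ^ 3 = 1 → y ≠ 1 → z ^ 5 = 1 → z ≠ 1 → y * z = z * y → Q y)
    {d : ↥(Subgroup.centralizer ({t} : Set G))} (hx : x * t = t * x) (hx5 : x ^ 5 = 1) (hx1 : x ≠ 1)
    (hd : (d : G) * x * (d : G)⁻¹ ∈ Subgroup.zpowers w) (hu : u * w = w * u) (hc3 : (t * (u * t * u⁻¹)) ^ 3 = 1)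
    (hc1 : t * (u * t * u⁻¹) ≠ 1) : Dead t x := by
  have hdt : (d : G) * t = t * d := Subgroup.mem_centralizer_singleton_iff.1 d.2
  have e1 : (d : G) * t * (d : G)⁻¹ = t := by rw [hdt, mul_inv_cancel_right]
  refine dead_of_conj' (d : G) e1 rfl ?_
  have hz5 := conj_pow_one (h := (d : G)) hx5
  have hz1 := conj_ne_one (h := (d : G)) hx1
  have hzt : t * ((d : G) * x * (d : G)⁻¹) = ((d : G) * x * (d : G)⁻¹) * t := by
    have h1 : Commute t (d : G) := hdt.symm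
    exact ((h1.mul_right (show Commute t x from hx.symm)).mul_right h1.inv_right).eq
  have huz := comm_of_zpowers hd hu
  have hcz : t * (u * t * u⁻¹) * ((d : G) * x * (d : G)⁻¹) = ((d : G) * x * (d : G)⁻¹) * (t * (u * t * u⁻¹)) := by
    have h1 : Commute u ((d : G) * x * (d : G)⁻¹) := huz
    have h2 : Commute t ((d : G) * x * (d : G)⁻¹) := hzt
    exact (h2.mul_left ((h1.mul_left h2).mul_left h1.inv_left)).eq
  obtain ⟨M, v, hs⟩ := hQ _ (h5 hc3 hc1 hz5 hz1 hcz)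
  exact dead_prod hs hzt huz (not_mem_of_pow hc3 (Or.inl rfl) hz5 hz1)

theorem five_abs {t x w u : G} {Q : G → Prop} (hQ : ∀ c, Q c → ∃ (M : Subgroup G) (v : G), Split c M v)
    (h5 : ∀ {y z : G}, y ^ 3 = 1 → y ≠ 1 → z ^ 5 = 1 → z ≠ 1 → y * z = z * y → Q y)
    {hw : w ∈ Subgroup.centralizer ({t} : Set G)}
    (hex : ∀ g : ↥(Subgroup.centralizer ({t} : Set G)), orderOf g = 5 → ∃ c : ↥(Subgroup.centralizer ({t} : Set G)),
      c * g * c⁻¹ ∈ Subgroup.zpowers (⟨w, hw⟩ : ↥(Subgroup.centralizer ({t} : Set G))))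
    (hx : x * t = t * x) (hx5 : x ^ 5 = 1) (hx1 : x ≠ 1)
    (hu : u * w = w * u) (hc3 : (t * (u * t * u⁻¹)) ^ 3 = 1)
    (hc1 : t * (u * t * u⁻¹) ≠ 1) : Dead t x := by
  obtain ⟨d, hd⟩ := hex ⟨x, mem_cen hx⟩ (orderOf_mk (mem_cen hx) Nat.prime_five hx5 hx1)
  exact five_aux (Q := Q) hQ (fun h3 hy hz5 hz1 hyz => h5 h3 hy hz5 hz1 hyz)
    (d := d) hx hx5 hx1 (coe_zp hd) hu hc3 hc1

end gen2

theorem five_mid {x₀ : LL} (hx : x₀ * (x 44 * x 47) = (x 44 * x 47) * x₀) (h5 : x₀ ^ 5 = 1) (h1 : x₀ ≠ 1) :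
    Dead (x 44 * x 47) x₀ := by
  have hc3 : ((x 44 * x 47) * (x 0 * (x 44 * x 47) * (x 0)⁻¹)) ^ 3 = 1 := by
    rw [c5_eq]
    exact c5_cube
  have hc1 : (x 44 * x 47) * (x 0 * (x 44 * x 47) * (x 0)⁻¹) ≠ 1 := by
    rw [c5_eq]
    exact c5_ne
  exact five_abs (G := LL) (t := x 44 * x 47) (x := x₀) (w := W5) (u := x 0) (Q := Gd) (fun c hc => gd_split hc)
    (fun {y z} h3 hy hz5 hz1 hyz => gd_of_comm (y := y) (x := z) (Or.inl rfl) hyz h3 hy hz5 hz1) (hw := W5_mem)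
    (fun g hg => exists_c5 (g := g) hg) hx h5 h1 W5_comm0 hc3 hc1

/-- **The involution `x 44 * x 47`.** -/
theorem pair_mid {g : LL} {r : ℕ} (hr : r.Prime) (hr2 : r ≠ 2) (h : g ^ r = 1) (h1 : g ≠ 1)
    (hc : g * (x 44 * x 47) = (x 44 * x 47) * g) : Gd g ∨ Dead (x 44 * x 47) g := by
  have h44 := Cfsg.Agent.FourTwo.LiftInv.cent_c hc
  have h47 : g ∈ C47 := mem_cen (Cfsg.Agent.FourTwo.LiftInv.cent_c' hc)
  have ho : orderOf (⟨g, h47⟩ : ↥C47) = r := orderOf_mk (G := LL) (K := C47) (g := g) h47 hr h h1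
  rcases prime47 hr hr2 ho with rfl | rfl | rfl
  · rcases gd_or ho with h3 | ⟨-, h3⟩
    · exact Or.inl h3
    · exfalso
      have h4 := h3 v0
      have h5 : r0 g *ᵥ v0 = v0 := fix_v0 (g := ⟨g, h47⟩) h44
      change v0 + r0 g *ᵥ v0 + r0 g *ᵥ (r0 g *ᵥ v0) = 0 at h4
      rw [h5, h5] at h4
      apply v0_ne'
      funext a
      have h6 := congrFun h4 a
      have key : ∀ b : ZMod 2, b + b + b = 0 → b = 0 := by decide
      exact key _ h6
  · exact Or.inr (five_mid hc h h1)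
  · exact (no7_mid ho h44).elim

end Cfsg.Agent.H622.RG
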