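import Cfsg.Agent.H622.RG.FC

/-!
# S3509, `F₄(2)`: the involution `x 44 * x 32` with elements of odd prime order (helper622)
-/

set_option autoImplicit false
set_option linter.unusedSectionVars false
set_option maxRecDepth 100000

namespace Cfsg.Agent.H622.RG

open Cfsg Cfsg.Lie Cfsg.Agent.ChevalleyStructure.TwF4.Bits Cfsg.Agent.ChevalleyStructure.TwF4.Tables
  Cfsg.Agent.ChevalleyStructure.TwF4.Rel
open Cfsg.Agent.FourTwo.RankInv
open Cfsg.Agent.FourTwo.Base hiding bar bar_lt x_mul_self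
open Cfsg.Agent.FourTwo.ClassSep Cfsg.Agent.FourTwo.Par Cfsg.Agent.FourTwo.Cent Cfsg.Agent.FourTwo.BN
open Cfsg.Agent.LThreeFfour.Mat Cfsg.Agent.LThreeFfour.Rho Cfsg.Agent.LThreeFfour.Levi Cfsg.Agent.LThreeFfour.Types
open Cfsg.Agent.LThreeFfour.Long Cfsg.Agent.LThreeFfour.SpClass
open Cfsg.Agent.FourTwo.AutF4 (gam gam_x gam_gam gam_44 gam_47)
open Cfsg.Agent.H873.RG Cfsg.Agent.H326.F4C
open Matrix

/-! ### general -/

section gen

variable {G : Type} [Group G]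

theorem dead_sub {t g c : G} (h : Dead c g) (hc : ∀ H : Subgroup G, t ∈ Sf H g → c ∈ Sf H g) : Dead t g := by
  intro H hH hg
  exact h H hH (Sf_symm (hc H (Sf_symm hg)))

theorem GdA.inv {y₀ y t : G} (h : GdA y₀ y) (ht : t * y₀ * t⁻¹ = y₀⁻¹) : GdA y₀ y⁻¹ := by
  obtain ⟨α, rfl⟩ := h
  refine ⟨(MulAut.conj t).trans α, ?_⟩
  show (α y₀)⁻¹ = α (t * y₀ * t⁻¹)
  rw [ht, map_inv]

theorem zp3 {c g : G} (hc : c ^ 3 = 1) (h : g ∈ Subgroup.zpowers c) : g = 1 ∨ g = c ∨ g = c⁻¹ := by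
  obtain ⟨k, rfl⟩ := Subgroup.mem_zpowers_iff.1 h
  have h3 : c ^ (3 : ℤ) = 1 := by exact_mod_cast hc
  rw [zpow_eq_zpow_emod k h3]
  have h4 : k % 3 = 0 ∨ k % 3 = 1 ∨ k % 3 = 2 := by omega
  rcases h4 with h4 | h4 | h4
  · left; rw [h4, zpow_zero]
  · right; left; rw [h4, zpow_one]
  · right; right
    rw [h4]
    apply eq_inv_of_mul_eq_one_left
    rw [← hc]
    have : c ^ (2 : ℤ) = c ^ 2 := by exact_mod_cast rfl
    rw [this, ← pow_succ]

/-- the involution `a * z`: the product of two conjugates -/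
theorem big_abs {a z y g : G} {Q : G → Prop} (hQ : ∀ c, Q c → ∃ (M : Subgroup G) (v : G), Split c M v)
    (hQi : ∀ c, Q c → Q c⁻¹) (haz : a * z = z * a) (hz2 : z * z = 1) (hyz : y * z = z * y) (hyg : y * g = g * y)
    (hag : a * g = g * a) (hg1 : g ≠ 1)
    (hp : Q (a * (y * a * y⁻¹)) ∨ ∃ k : ℕ, Q g ∨ Dead ((a * (y * a * y⁻¹)) ^ k) g) : Q g ∨ Dead (a * z) g := by
  have e : (a * z) * (y * (a * z) * y⁻¹) = a * (y * a * y⁻¹) := by
    have h1 : Commute z (y * a * y⁻¹) :=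
      ((show Commute z y from hyz.symm).mul_right (show Commute z a from haz.symm)).mul_right
        ((show Commute z y from hyz.symm).inv_right)
    have h2 : y * (a * z) * y⁻¹ = (y * a * y⁻¹) * z := by
      have h3 : z * y⁻¹ = y⁻¹ * z := ((show Commute z y from hyz.symm).inv_right).eq
      calc y * (a * z) * y⁻¹ = y * a * (z * y⁻¹) := by group
        _ = y * a * (y⁻¹ * z) := by rw [h3]
        _ = _ := by group
    calc (a * z) * (y * (a * z) * y⁻¹) = a * (z * (y * a * y⁻¹)) * z := by rw [h2]; group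
      _ = a * ((y * a * y⁻¹) * z) * z := by rw [h1.eq]
      _ = a * (y * a * y⁻¹) * (z * z) := by group
      _ = _ := by rw [hz2, mul_one]
  have hS : ∀ H : Subgroup G, a * z ∈ Sf H g → a * (y * a * y⁻¹) ∈ Sf H g := by
    intro H h
    rw [← e]
    exact mul_mem h (Sf_conj h hyg)
  rcases hp with h | ⟨k, h | h⟩
  · obtain ⟨M, v, hs⟩ := hQ _ h
    by_cases hz : g ∈ Subgroup.zpowers (a * (y * a * y⁻¹))
    · left
      rcases zp3 hs.cube hz with h3 | h3 | h3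
      · exact absurd h3 hg1
      · rw [h3]; exact h
      · rw [h3]; exact hQi _ h
    · right
      have hc : g * (a * (y * a * y⁻¹)) = (a * (y * a * y⁻¹)) * g := by
        have h1 : Commute g a := hag.symm
        have h2 : Commute g y := hyg.symm
        exact (h1.mul_right ((h2.mul_right h1).mul_right h2.inv_right)).eq
      exact dead_via hs hc hz hS
  · exact Or.inl h
  · exact Or.inr (dead_sub h fun H hH => pow_mem (hS H hH) k)

theorem conj_comm {a g w : G} (h : g * (w * a * w⁻¹) = (w * a * w⁻¹) * g) : (w⁻¹ * g * w) * a = a * (w⁻¹ * g * w) := by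
  calc (w⁻¹ * g * w) * a = w⁻¹ * (g * (w * a * w⁻¹)) * w := by group
    _ = w⁻¹ * ((w * a * w⁻¹) * g) * w := by rw [h]
    _ = _ := by group

theorem via_conj {a g w : G} {Q : G → Prop} {r : ℕ} (hQc : ∀ w g : G, Q (w * g * w⁻¹) → Q g)
    (hg : g * (w * a * w⁻¹) = (w * a * w⁻¹) * g) (hg3 : g ^ r = 1) (hg1 : g ≠ 1)
    (h : ∀ z : G, z ^ r = 1 → z ≠ 1 → z * a = a * z → Q z ∨ Dead a z) : Q g ∨ Dead (w * a * w⁻¹) g := by
  have h1 : (w⁻¹ * g * w⁻¹⁻¹) * a = a * (w⁻¹ * g * w⁻¹⁻¹) := by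
    rw [inv_inv]
    exact conj_comm hg
  rcases h (w⁻¹ * g * w⁻¹⁻¹) (conj_pow_one hg3) (conj_ne_one hg1) h1 with h2 | h2
  · exact Or.inl (hQc _ _ h2)
  · right
    refine dead_of_conj' w⁻¹ ?_ rfl h2
    group

theorem short_abs {n a b y u s : G} (hn : n * a * n⁻¹ = b) (hu : u * a = a * u)
    (h : (n⁻¹ * y * n) * a * (n⁻¹ * y * n)⁻¹ = u * s * u⁻¹) : b * (y * b * y⁻¹) = (n * u) * (a * s) * (n * u)⁻¹ := by
  have h1 : y * b * y⁻¹ = n * ((n⁻¹ * y * n) * a * (n⁻¹ * y * n)⁻¹) * n⁻¹ := by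
    rw [← hn]; group
  rw [h1, h, ← hn]
  calc n * a * n⁻¹ * (n * (u * s * u⁻¹) * n⁻¹) = n * (a * u) * s * u⁻¹ * n⁻¹ := by group
    _ = n * (u * a) * s * u⁻¹ * n⁻¹ := by rw [hu]
    _ = _ := by group

theorem pow_conj_eq {c d h a w : G} {k : ℕ} (e : c = h * d * h⁻¹) (hk : d ^ k = w * a * w⁻¹) :
    c ^ k = (h * w) * a * (h * w)⁻¹ := by
  rw [e, conj_pow, hk]
  group

theorem conj_one' {c h d : G} (e : c = h * d * h⁻¹) (hd : d = 1) : c = 1 := by
  rw [e, hd, mul_one, mul_inv_cancel]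

theorem comm_mk {K : Subgroup G} {a b : G} (ha : a ∈ K) (hb : b ∈ K) (h : a * b = b * a) :
    (⟨a, ha⟩ : ↥K) * ⟨b, hb⟩ = ⟨b, hb⟩ * ⟨a, ha⟩ := Subtype.ext h

theorem one_mk {K : Subgroup G} {a : G} (ha : a ∈ K) (h : a * a = 1) : (⟨a, ha⟩ : ↥K) * ⟨a, ha⟩ = 1 := Subtype.ext h

theorem pow_mk {K : Subgroup G} {a : G} (ha : a ∈ K) {r : ℕ} (h : a ^ r = 1) : (⟨a, ha⟩ : ↥K) ^ r = 1 := Subtype.ext h

theorem ne_mk {K : Subgroup G} {a : G} (ha : a ∈ K) (h : a ≠ 1) : (⟨a, ha⟩ : ↥K) ≠ 1 :=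
  fun h' => h (congrArg Subtype.val h')

theorem exists_down {K : Subgroup G} {a g : G} (ha : a ∈ K) (hg : g ∈ K)
    (h : ∃ y : ↥K, y * ⟨g, hg⟩ = ⟨g, hg⟩ * y ∧ y * ⟨a, ha⟩ ≠ ⟨a, ha⟩ * y) :
    ∃ y : G, y ∈ K ∧ y * g = g * y ∧ y * a ≠ a * y := by
  obtain ⟨y, h1, h2⟩ := h
  exact ⟨y, y.2, congrArg Subtype.val h1, fun h3 => h2 (Subtype.ext h3)⟩

theorem prod_ne_one {a y : G} (ha : a * a = 1) (h : y * a ≠ a * y) : a * (y * a * y⁻¹) ≠ 1 := by
  intro h1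
  apply h
  have h2 : y * a * y⁻¹ = a := by
    calc y * a * y⁻¹ = (a * a) * (y * a * y⁻¹) := by rw [ha, one_mul]
      _ = a * (a * (y * a * y⁻¹)) := by group
      _ = a := by rw [h1, mul_one]
  calc y * a = (y * a * y⁻¹) * y := by group
    _ = a * y := by rw [h2]

theorem comm_abs {a y g : G} (h37 : g * a = a * g) (hyg : y * g = g * y) :
    g * (a * (y * a * y⁻¹)) = (a * (y * a * y⁻¹)) * g := by
  have h1 : Commute g a := h37
  have h2 : Commute g y := hyg.symm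
  exact (h1.mul_right ((h2.mul_right h1).mul_right h2.inv_right)).eq

theorem comm_pow_abs {c g : G} {k : ℕ} (h : g * c = c * g) : g * c ^ k = c ^ k * g :=
  ((show Commute g c from h).pow_right k).eq

theorem cancel_abs {a b g : G} (h : g * (a * b) = (a * b) * g) (ha : g * a = a * g) : g * b = b * g := by
  have h1 : a * (g * b) = a * (b * g) := by
    rw [← mul_assoc, ← ha, mul_assoc, h, mul_assoc]
  exact mul_left_cancel h1

theorem big_transfer {a b a' b' n g : G} {Q : G → Prop} {r : ℕ} (hQc : ∀ w g : G, Q (w * g * w⁻¹) → Q g)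
    (ha : n * a * n⁻¹ = a') (hb : n * b * n⁻¹ = b') (hga : g * a = a * g) (hgb : g * b = b * g) (hg : g ^ r = 1)
    (hg1 : g ≠ 1)
    (h : ∀ z : G, z ^ r = 1 → z ≠ 1 → z * a' = a' * z → z * b' = b' * z → Q z ∨ Dead (a' * b') z) :
    Q g ∨ Dead (a * b) g := by
  have key : ∀ {c c' : G}, n * c * n⁻¹ = c' → g * c = c * g → (n * g * n⁻¹) * c' = c' * (n * g * n⁻¹) := by
    intro c c' h1 h2
    rw [← h1]
    calc (n * g * n⁻¹) * (n * c * n⁻¹) = n * (g * c) * n⁻¹ := by group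
      _ = n * (c * g) * n⁻¹ := by rw [h2]
      _ = _ := by group
  rcases h (n * g * n⁻¹) (conj_pow_one hg) (conj_ne_one hg1) (key ha hga) (key hb hgb) with h2 | h2
  · exact Or.inl (hQc _ _ h2)
  · right
    refine dead_of_conj' n ?_ rfl h2
    rw [← ha, ← hb]
    group

theorem pair_up {t x y rep : G} {Q : G → Prop} {r : ℕ} (hQc : ∀ w g : G, Q (w * g * w⁻¹) → Q g)
    (ht : y * t * y⁻¹ = rep) (hc : t * x = x * t) (hx : x ^ r = 1) (hx1 : x ≠ 1)
    (h : ∀ z : G, z ^ r = 1 → z ≠ 1 → z * rep = rep * z → Q z ∨ Dead rep z) : Q x ∨ Dead t x := by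
  have h1 : (y * x * y⁻¹) * rep = rep * (y * x * y⁻¹) := by
    rw [← ht]
    calc (y * x * y⁻¹) * (y * t * y⁻¹) = y * (x * t) * y⁻¹ := by group
      _ = y * (t * x) * y⁻¹ := by rw [hc]
      _ = _ := by group
  rcases h (y * x * y⁻¹) (conj_pow_one hx) (conj_ne_one hx1) h1 with h2 | h2
  · exact Or.inl (hQc _ _ h2)
  · exact Or.inr (dead_of_conj' y ht rfl h2)

end gen

section mon

variable {M : Type*} [Monoid M] {S : Submonoid M}

theorem coe_comm {s t : ↥S} (h : s * t = t * s) : (s : M) * (t : M) = (t : M) * (s : M) := congrArg Subtype.val h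

theorem coe_sq1 {s : ↥S} (h : s * s = 1) : (s : M) * (s : M) = 1 := congrArg Subtype.val h

theorem coe_pow1 {s : ↥S} {r : ℕ} (h : s ^ r = 1) : (s : M) ^ r = 1 := congrArg Subtype.val h

end mon

theorem exists_y_abs {K S : Type*} [Group K] [Group S] (ρ : K →* S) {g c a y₃ : K} (hc : c * g * c⁻¹ = y₃)
    (l : List K) (hl : ∀ D ∈ l, D * y₃ = y₃ * D)
    (hb : ∀ s : S, s * s = 1 → (∀ D ∈ l, s * ρ D = ρ D * s) → s = 1) (ha : a * a = 1) (ha1 : ρ a ≠ 1) :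
    ∃ y, y * g = g * y ∧ y * a ≠ a * y := by
  by_contra hcon
  have hcon' : ∀ y, y * g = g * y → y * a = a * y := fun y h => by
    by_contra h'
    exact hcon ⟨y, h, h'⟩
  have h1 : ρ (c * a * c⁻¹) = 1 := by
    apply hb
    · rw [← map_mul]
      have : c * a * c⁻¹ * (c * a * c⁻¹) = c * (a * a) * c⁻¹ := by group
      rw [this, ha, mul_one, mul_inv_cancel, map_one]
    · intro D hD
      have h2 := hl D hD
      rw [← hc] at h2
      have h3 : (c⁻¹ * D * c) * g = g * (c⁻¹ * D * c) := by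
        calc (c⁻¹ * D * c) * g = c⁻¹ * (D * (c * g * c⁻¹)) * c := by group
          _ = c⁻¹ * ((c * g * c⁻¹) * D) * c := by rw [h2]
          _ = _ := by group
      have h4 := hcon' _ h3
      rw [← map_mul, ← map_mul]
      congr 1
      calc c * a * c⁻¹ * D = c * (a * (c⁻¹ * D * c)) * c⁻¹ := by group
        _ = c * ((c⁻¹ * D * c) * a) * c⁻¹ := by rw [h4]
        _ = _ := by group
  apply ha1
  rw [map_mul, map_mul, map_inv, mul_inv_eq_one, mul_eq_left] at h1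
  exact h1

/-! ### matrices commuting with the three blocks -/

theorem plane_fix {B D : Matrix I6 I6 (ZMod 2)} {v : I6 → ZMod 2} (hB : B * D = D * B) (hB2 : B * B = 1)
    (hpl : ∀ w : I6 → ZMod 2, w + D *ᵥ w + D *ᵥ (D *ᵥ w) = 0 → w = 0 ∨ w = v ∨ w = D *ᵥ v ∨ w = D *ᵥ (D *ᵥ v))
    (hv : v + D *ᵥ v + D *ᵥ (D *ᵥ v) = 0) (h0 : v ≠ 0) (h1 : D *ᵥ v ≠ v) (h2 : D *ᵥ (D *ᵥ v) ≠ v)
    (h3 : D *ᵥ (D *ᵥ (D *ᵥ v)) = v) {w : I6 → ZMod 2} (hw : w + D *ᵥ w + D *ᵥ (D *ᵥ w) = 0) : B *ᵥ w = w := by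
  have BD : ∀ w, B *ᵥ (D *ᵥ w) = D *ᵥ (B *ᵥ w) := fun w => by
    rw [Matrix.mulVec_mulVec, Matrix.mulVec_mulVec, hB]
  have BB : ∀ w, B *ᵥ (B *ᵥ w) = w := fun w => by
    rw [Matrix.mulVec_mulVec, hB2, Matrix.one_mulVec]
  have hBv : B *ᵥ v = v := by
    have h4 : B *ᵥ v + D *ᵥ (B *ᵥ v) + D *ᵥ (D *ᵥ (B *ᵥ v)) = 0 := by
      rw [← BD, ← BD, ← Matrix.mulVec_add, ← Matrix.mulVec_add, hv, Matrix.mulVec_zero]
    have h5 := BB v
    rcases hpl _ h4 with h | h | h | h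
    · exfalso
      rw [h, Matrix.mulVec_zero] at h5
      exact h0 h5.symm
    · exact h
    · exfalso
      rw [h, BD, h] at h5
      exact h2 h5
    · exfalso
      rw [h, BD, BD, h, h3] at h5
      exact h1 h5
  rcases hpl w hw with h | h | h | h
  · rw [h, Matrix.mulVec_zero]
  · rw [h, hBv]
  · rw [h, BD, hBv]
  · rw [h, BD, BD, hBv]

def D1 : Matrix I6 I6 (ZMod 2) := M6 (wordM [41, 6])
def D2 : Matrix I6 I6 (ZMod 2) := M6 (wordM [30, 17])
def D3 : Matrix I6 I6 (ZMod 2) := M6 (wordM [25, 22])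

/-- the plane of `D` contains the vector `v` -/
def okP (D : Matrix I6 I6 (ZMod 2)) (v : I6 → ZMod 2) : Prop :=
  (∀ w : I6 → ZMod 2, w + D *ᵥ w + D *ᵥ (D *ᵥ w) = 0 → w = 0 ∨ w = v ∨ w = D *ᵥ v ∨ w = D *ᵥ (D *ᵥ v)) ∧
    v + D *ᵥ v + D *ᵥ (D *ᵥ v) = 0 ∧ v ≠ 0 ∧ D *ᵥ v ≠ v ∧ D *ᵥ (D *ᵥ v) ≠ v ∧ D *ᵥ (D *ᵥ (D *ᵥ v)) = v

instance (D : Matrix I6 I6 (ZMod 2)) (v : I6 → ZMod 2) : Decidable (okP D v) := by unfold okP; infer_instance

theorem ok_all : ∀ p : I6, okP D1 (Pi.single p 1) ∨ okP D2 (Pi.single p 1) ∨ okP D3 (Pi.single p 1) := by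
  decide +kernel

theorem mat_blocks {B : Matrix I6 I6 (ZMod 2)} (h1 : B * D1 = D1 * B) (h2 : B * D2 = D2 * B) (h3 : B * D3 = D3 * B)
    (hB2 : B * B = 1) : B = 1 := by
  have key : ∀ (D : Matrix I6 I6 (ZMod 2)) (v : I6 → ZMod 2), B * D = D * B → okP D v → B *ᵥ v = v := by
    intro D v hD h
    obtain ⟨a1, a2, a3, a4, a5, a6⟩ := h
    exact plane_fix hD hB2 a1 a2 a3 a4 a5 a6 a2
  have h : ∀ p : I6, B *ᵥ (Pi.single p 1) = Pi.single p 1 := by
    intro p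
    rcases ok_all p with h | h | h
    · exact key _ _ h1 h
    · exact key _ _ h2 h
    · exact key _ _ h3 h
  ext p q
  have h4 := congrFun (h q) p
  rw [Matrix.mulVec_single_one] at h4
  rw [Matrix.one_apply]
  change B p q = _ at h4
  rw [h4, Pi.single_apply]

/-! ### elements of `C(x 47)` -/

def e1 : ↥C47 := ⟨wd [41, 6], M0_le (wd_mem_M0 (by decide))⟩
def e2 : ↥C47 := ⟨wd [30, 17], M0_le (wd_mem_M0 (by decide))⟩
def e3 : ↥C47 := ⟨wd [25, 22], M0_le (wd_mem_M0 (by decide))⟩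
def a37 : ↥C47 := ⟨x 37, M0_le (x_mem_M0 (by decide))⟩

theorem r0_e1 : r0 (e1 : LL) = D1 := r0_wd (by decide)
theorem r0_e2 : r0 (e2 : LL) = D2 := r0_wd (by decide)
theorem r0_e3 : r0 (e3 : LL) = D3 := r0_wd (by decide)

theorem r0_37 : r0 (a37 : LL) = T37 := by
  have h : r0 (wd [37]) = T37 := r0_wd (by decide)
  rw [wd_one] at h
  exact h

theorem T37_ne : T37 ≠ 1 := by decide +kernel

theorem rho_a37_ne : rho a37 ≠ 1 := by
  intro h
  have h1 := r0_of_rho h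
  rw [r0_37] at h1
  exact T37_ne h1

theorem wcomm {u v : List ℕ} (h : wd (u ++ v) = wd (v ++ u)) : wd u * wd v = wd v * wd u := by
  rw [← wd_append, ← wd_append]
  exact h

theorem e1_c : wd [41, 6] * Y3 = Y3 * wd [41, 6] :=
  wcomm (wd_eq ([41, 6] ++ [41, 6, 30, 17, 25, 22]) ([41, 6, 30, 17, 25, 22] ++ [41, 6]) (by decide +kernel))
theorem e2_c : wd [30, 17] * Y3 = Y3 * wd [30, 17] :=
  wcomm (wd_eq ([30, 17] ++ [41, 6, 30, 17, 25, 22]) ([41, 6, 30, 17, 25, 22] ++ [30, 17]) (by decide +kernel))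
theorem e3_c : wd [25, 22] * Y3 = Y3 * wd [25, 22] :=
  wcomm (wd_eq ([25, 22] ++ [41, 6, 30, 17, 25, 22]) ([41, 6, 30, 17, 25, 22] ++ [25, 22]) (by decide +kernel))

theorem e1_comm : e1 * y3 = y3 * e1 := comm_mk (G := LL) (K := C47) _ _ e1_c
theorem e2_comm : e2 * y3 = y3 * e2 := comm_mk (G := LL) (K := C47) _ _ e2_c
theorem e3_comm : e3 * y3 = y3 * e3 := comm_mk (G := LL) (K := C47) _ _ e3_c

theorem sp_blocks (s : Matrix.symplecticGroup (Fin 3) (ZMod 2)) (hs : s * s = 1) (h1 : s * rho e1 = rho e1 * s)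
    (h2 : s * rho e2 = rho e2 * s) (h3 : s * rho e3 = rho e3 * s) : s = 1 := by
  have hm := coe_sq1 hs
  have k1 := coe_comm h1
  have k2 := coe_comm h2
  have k3 := coe_comm h3
  rw [rho_coe, r0_e1] at k1
  rw [rho_coe, r0_e2] at k2
  rw [rho_coe, r0_e3] at k3
  exact Subtype.ext (mat_blocks k1 k2 k3 hm)

theorem a37_sq : a37 * a37 = 1 := one_mk (G := LL) (K := C47) _ (Cfsg.Agent.FourTwo.Base.x_mul_self 37)

theorem exists_y {g c : ↥C47} (hc : c * g * c⁻¹ = y3) : ∃ y : ↥C47, y * g = g * y ∧ y * a37 ≠ a37 * y := by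
  refine exists_y_abs rho hc [e1, e2, e3] ?_ ?_ a37_sq rho_a37_ne
  · intro D hD
    simp only [List.mem_cons, List.not_mem_nil, or_false] at hD
    rcases hD with rfl | rfl | rfl
    · exact e1_comm
    · exact e2_comm
    · exact e3_comm
  · intro s hs h
    exact sp_blocks s hs (h e1 (by simp)) (h e2 (by simp)) (h e3 (by simp))

theorem gd_or_y {g : ↥C47} (hg : orderOf g = 3) :
    Gd (g : LL) ∨ ∃ y : ↥C47, y * g = g * y ∧ y * a37 ≠ a37 * y := by
  rcases gd_or hg with h | ⟨⟨c, hc⟩, -⟩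
  · exact Or.inl h
  · exact Or.inr (exists_y hc)

theorem gd_or_L {g : LL} (hC : g ∈ C47) (ho : orderOf (⟨g, hC⟩ : ↥C47) = 3) :
    Gd g ∨ ∃ y : LL, y ∈ C47 ∧ y * g = g * y ∧ y * x 37 ≠ x 37 * y := by
  rcases gd_or_y ho with h | h
  · exact Or.inl h
  · exact Or.inr (exists_down (G := LL) (K := C47) (a := x 37) (g := g) _ hC h)

theorem rho_eq_one {g : ↥C47} (h : r0 (g : LL) = 1) : rho g = 1 := by
  apply Subtype.ext
  rw [rho_coe, h]
  rfl

/-- elements of order 5, 7 do not commute with `x 37` -/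
theorem no57' {g : ↥C47} {r : ℕ} (hr : r = 5 ∨ r = 7) (k1 : g * a37 = a37 * g) (h : g ^ r = 1) (h1 : g ≠ 1) : False := by
  have hrp : r.Prime := by rcases hr with rfl | rfl <;> norm_num
  have k2 : rho g * rho a37 = rho a37 * rho g := by rw [← map_mul, k1, map_mul]
  have k3 := coe_comm k2
  rw [rho_coe, rho_coe, r0_37] at k3
  have k5 : rho g ^ r = 1 := by rw [← map_pow, h, map_one]
  have k6 := coe_pow1 k5
  rw [rho_coe] at k6
  exact rho_ne_one hrp (by omega) h h1 (rho_eq_one (mat_big k3 hr k6))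

theorem no57 {g : LL} {r : ℕ} (hr : r = 5 ∨ r = 7) (h47 : g ∈ C47) (h37 : g * x 37 = x 37 * g) (h : g ^ r = 1)
    (h1 : g ≠ 1) : False := by
  have k1 : (⟨g, h47⟩ : ↥C47) * a37 = a37 * ⟨g, h47⟩ := comm_mk (G := LL) (K := C47) _ _ h37
  exact no57' (g := ⟨g, h47⟩) hr k1 (pow_mk (G := LL) (K := C47) h47 h) (ne_mk (G := LL) (K := C47) h47 h1)

/-! ### the product of two conjugates of `x 37` -/

theorem t44_3 : x 44 * x 44 = 1 := Cfsg.Agent.FourTwo.Base.x_mul_self 44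

theorem gd_conj_back (w g : LL) (h : Gd (w * g * w⁻¹)) : Gd g := gd_of_conj (y := g) (g := w) h rfl

theorem gd_conj_fwd {c w d : LL} (e : c = w * d * w⁻¹) (h : Gd d) : Gd c :=
  gdA_conj_sub (chevF4.group (ZMod 2)) h (g := w) (z := c) e.symm

theorem Y0_inv : x 47 * Y0 * (x 47)⁻¹ = Y0⁻¹ := by
  have h : x 47 * x 47 = 1 := Cfsg.Agent.FourTwo.Base.x_mul_self 47
  unfold Y0
  rw [_root_.mul_inv_rev, x_inv, x_inv, ← mul_assoc, h, one_mul]

theorem gd_inv {y : LL} (h : Gd y) : Gd y⁻¹ := by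
  have := GdA.inv (G := LL) (y₀ := Y0) (y := y) (t := x 47) h Y0_inv
  exact this

theorem short_cases (y : LL) (hne : x 37 * (y * x 37 * y⁻¹) ≠ 1) : Gd (x 37 * (y * x 37 * y⁻¹)) ∨
    ∃ k : ℕ, ∃ w : LL, (x 37 * (y * x 37 * y⁻¹)) ^ k = w * x 44 * w⁻¹ ∨
      (x 37 * (y * x 37 * y⁻¹)) ^ k = w * (x 44 * x 47) * w⁻¹ := by
  obtain ⟨u, hu, a, ha, hs, h⟩ := Cfsg.Agent.FourTwo.Facts2.short_pair ((nw [3, 2, 1, 0])⁻¹ * y * nw [3, 2, 1, 0])
  have e := short_abs (G := LL) (n := nw [3, 2, 1, 0]) (a := x 44) (b := x 37) (y := y) (u := u) (s := x a)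
    Cfsg.Agent.LThreeFfour.Long.x37_conj (Cfsg.Agent.FourTwo.Facts2.central44 hu) h
  by_cases h44 : a = 44
  · exfalso
    subst h44
    exact hne (conj_one' (G := LL) e t44_3)
  by_cases h3 : a = 3
  · left
    subst h3
    exact gd_conj_fwd e gd_443
  · right
    obtain ⟨k, -, w, hw⟩ := Cfsg.Agent.FourTwo.Facts2.pow_short ha hs h44 h3
    refine ⟨k, nw [3, 2, 1, 0] * u * w, ?_⟩
    rcases hw with hw | hw
    · exact Or.inl (pow_conj_eq (G := LL) e hw)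
    · exact Or.inr (pow_conj_eq (G := LL) e hw)

theorem c47_comm {y : LL} (h : y ∈ C47) : y * x 47 = x 47 * y := by
  have h1 := comm47 ⟨y, h⟩
  exact h1

theorem c37_comm : x 37 * x 47 = x 47 * x 37 := c47_comm (M0_le (x_mem_M0 (by decide)))

theorem pair_big37 {g : LL} {r : ℕ} (hr : r.Prime) (hr2 : r ≠ 2) (h : g ^ r = 1) (h1 : g ≠ 1)
    (h37 : g * x 37 = x 37 * g) (h47 : g * x 47 = x 47 * g) : Gd g ∨ Dead (x 37 * x 47) g := by
  have hC : g ∈ C47 := mem_cen h47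
  have ho : orderOf (⟨g, hC⟩ : ↥C47) = r := orderOf_mk (G := LL) (K := C47) (g := g) hC hr h h1
  rcases prime47 hr hr2 ho with rfl | rfl | rfl
  · rcases gd_or_L hC ho with h3 | ⟨y, hyK, hyg, hya⟩
    · exact Or.inl h3
    · have hyz : y * x 47 = x 47 * y := c47_comm hyK
      have haz : x 37 * x 47 = x 47 * x 37 := c37_comm
      have hne := prod_ne_one (G := LL) (a := x 37) (y := y) (Cfsg.Agent.FourTwo.Base.x_mul_self 37) hya
      refine big_abs (G := LL) (a := x 37) (z := x 47) (y := y) (g := g) (Q := Gd) (fun c hc => gd_split hc)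
        (fun c hc => gd_inv hc) haz (Cfsg.Agent.FourTwo.Base.x_mul_self 47) hyz hyg h37.symm h1 ?_
      have hgc : g * (x 37 * (y * x 37 * y⁻¹)) = (x 37 * (y * x 37 * y⁻¹)) * g :=
        comm_abs (G := LL) h37 hyg
      rcases short_cases y hne with h4 | ⟨k, w, h4 | h4⟩
      · exact Or.inl h4
      · refine Or.inr ⟨k, ?_⟩
        have h5 := comm_pow_abs (G := LL) (k := k) hgc
        rw [h4] at h5 ⊢
        exact via_conj (G := LL) (Q := Gd) gd_conj_back h5 h h1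
          (fun z hz hz1 hzc => Or.inr (dead44 hr hr2 hz hz1 hzc))
      · refine Or.inr ⟨k, ?_⟩
        have h5 := comm_pow_abs (G := LL) (k := k) hgc
        rw [h4] at h5 ⊢
        exact via_conj (G := LL) (Q := Gd) gd_conj_back h5 h h1
          (fun z hz hz1 hzc => pair_mid hr hr2 hz hz1 hzc)
  · exact (no57 (Or.inl rfl) hC h37 h h1).elim
  · exact (no57 (Or.inr rfl) hC h37 h h1).elim

theorem x32_conj : nw [3, 2, 1, 0] * x 32 * (nw [3, 2, 1, 0])⁻¹ = x 47 :=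
  nw_conj (w := [3, 2, 1, 0]) (by decide) (r := 32) (by norm_num)

/-- **The involution `x 44 * x 32`.** -/
theorem pair_big {g : LL} {r : ℕ} (hr : r.Prime) (hr2 : r ≠ 2) (h : g ^ r = 1) (h1 : g ≠ 1)
    (hc : g * (x 44 * x 32) = (x 44 * x 32) * g) : Gd g ∨ Dead (x 44 * x 32) g := by
  have h44 := Cfsg.Agent.LThreeFfour.Form.comm_of_sq hc
  have h32 : g * x 32 = x 32 * g := cancel_abs (G := LL) hc h44
  exact big_transfer (G := LL) (Q := Gd) (n := nw [3, 2, 1, 0]) gd_conj_back Cfsg.Agent.LThreeFfour.Long.x37_conj x32_conj h44 h32 h h1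
    (fun z hz hz1 h37 h47 => pair_big37 hr hr2 hz hz1 h37 h47)

/-- **Involutions with elements of odd prime order.** -/
theorem pair_two (t g : LL) (r : ℕ) (ht : t * t = 1) (ht1 : t ≠ 1) (hr : r.Prime) (hr2 : r ≠ 2) (h : g ^ r = 1)
    (h1 : g ≠ 1) (hc : t * g = g * t) : Gd g ∨ Dead t g := by
  obtain ⟨y, hy⟩ := Cfsg.Agent.FourTwo.Classes.exists_class ht ht1
  rcases hy with hy | hy | hy | hy
  · exact pair_up (G := LL) (Q := Gd) gd_conj_back hy hc h h1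
      (fun z hz hz1 hzc => Or.inr (dead44 hr hr2 hz hz1 hzc))
  · exact pair_up (G := LL) (Q := Gd) gd_conj_back hy hc h h1
      (fun z hz hz1 hzc => Or.inr (dead47 hr hr2 hz hz1 hzc))
  · exact pair_up (G := LL) (Q := Gd) gd_conj_back hy hc h h1
      (fun z hz hz1 hzc => pair_mid hr hr2 hz hz1 hzc)
  · exact pair_up (G := LL) (Q := Gd) gd_conj_back hy hc h h1
      (fun z hz hz1 hzc => pair_big hr hr2 hz hz1 hzc)

/-- **The facts on `F₄(2)`.** -/
theorem facts_LL : Facts LL Gd where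
  simple := Cfsg.Agent.H197.Reg.simple_LL
  good := fun _ h => gd_split h
  pair2 := pair_two
  odd := gd_odd

end Cfsg.Agent.H622.RG
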